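import Cfsg.Agent.H14.GoodSt

/-! Iterated cores of a maximal parabolic subgroup and its neighbour. -/

set_option linter.unusedSectionVars false

namespace H15.Core6
open H14 H14.PreSt H14.St H14.RootSys

section core
variable {G : Type*} [Group G]

/-- the core in `M` of `X` -/
def core (M X : Subgroup G) : Subgroup G := (X.subgroupOf M).normalCore.map M.subtype

theorem mem_core {M X : Subgroup G} {g : G} : g ∈ core M X ↔ g ∈ M ∧ ∀ m ∈ M, m * g * m⁻¹ ∈ X := by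
  constructor
  · rintro ⟨y, hy, rfl⟩
    exact ⟨y.2, fun m hm => hy ⟨m, hm⟩⟩
  · rintro ⟨h1, h2⟩
    exact ⟨⟨g, h1⟩, fun m => h2 m m.2, rfl⟩

theorem core_le {M X : Subgroup G} : core M X ≤ X := fun g hg => by
  simpa using (mem_core.1 hg).2 1 M.one_mem

theorem core_conj {M X : Subgroup G} {m g : G} (hm : m ∈ M) (hg : g ∈ core M X) :
    m * g * m⁻¹ ∈ core M X := by
  obtain ⟨h1, h2⟩ := mem_core.1 hg
  refine mem_core.2 ⟨M.mul_mem (M.mul_mem hm h1) (M.inv_mem hm), fun k hk => ?_⟩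
  have := h2 (k * m) (M.mul_mem hk hm)
  simpa [mul_assoc] using this

theorem core_map (e : G ≃* G) (M X : Subgroup G) :
    core (M.map e.toMonoidHom) (X.map e.toMonoidHom) = (core M X).map e.toMonoidHom := by
  ext g
  obtain ⟨g, rfl⟩ := e.surjective g
  have h : ∀ (Y : Subgroup G) (a : G), e a ∈ Y.map e.toMonoidHom ↔ a ∈ Y := fun Y a =>
    Subgroup.mem_map_iff_mem (f := e.toMonoidHom) e.injective
  rw [h, mem_core, mem_core, h]
  refine and_congr_right fun _ => ⟨fun H m hm => ?_, fun H m hm => ?_⟩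
  · have := H (e m) ((h _ _).2 hm)
    rwa [← map_inv, ← map_mul, ← map_mul, h] at this
  · obtain ⟨m, hm', rfl⟩ := hm
    change e m * e g * (e m)⁻¹ ∈ _
    rw [← map_inv, ← map_mul, ← map_mul, h]
    exact H m hm'

end core

variable {ι κ : Type*} [Fintype κ] [DecidableEq κ] [Fintype ι] [DecidableEq ι] {R : RootSys ι κ}
  {C : Chev R} {K G : Type*} [Field K] [Group G] {S : St C K G}

theorem exists_P (hS : S.Sep) (hG : S.U Set.univ = ⊤) {M : Subgroup G} (hM : S.B ≤ M) :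
    M = S.P {j | S.n (R.simple j) 1 ∈ M} := by
  refine le_antisymm ?_ (P_le.2 ⟨hM, fun j hj => hj⟩)
  have := H13.BN.eq_parabolic (P := bnPair hS hG) hM
  rw [this]
  refine sup_le (B_le_P _) ((Subgroup.closure_le _).2 ?_)
  rintro _ ⟨⟨j, rfl⟩, hj⟩
  refine n_mem_P ?_
  show _ ∈ _
  rw [← this]; exact hj

theorem cf_sr_self (i : κ) (r : ι) : R.cf (R.sr i r) i = R.cf r i - R.wt r i := by
  rw [R.refl_simple, R.cf_sref_self]

theorem cf_ss (i : κ) : R.cf (R.simple i) i = 1 := by simp [R.cf_simple]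

theorem wt_ss (i : κ) : R.wt (R.simple i) i = 2 := by rw [R.wt_simple, R.A_self]

theorem not_cell (hS : S.Sep) {I : Set κ} {k : κ} (hk : k ∉ I) {w : Equiv.Perm ι} {y : G}
    (hy : y ∈ S.P I) (hc : S.Cell w y) : R.cf (w (R.simple k)) k = 1 := by
  obtain ⟨v, hv, hc'⟩ := mem_P_iff.1 hy
  rw [hc.unique hS hc', R.cf_WJ hv _ hk, cf_ss]

theorem mem_of_n (hS : S.Sep) {I : Set κ} {k : κ} {t : K} (ht : t ≠ 0) (h : S.n (R.simple k) t ∈ S.P I) :
    k ∈ I := by
  by_contra hk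
  have := not_cell hS hk h (cell_of_NW (n_mem_NW _ ht))
  rw [cf_sr_self, cf_ss, wt_ss] at this
  omega

theorem neg_zero (hS : S.Sep) {I : Set κ} {k : κ} (hk : k ∉ I) {t : K}
    (h : S.x (R.neg (R.simple k)) t ∈ S.P I) : t = 0 := by
  by_contra ht
  have hx : S.x (R.simple k) t⁻¹ ∈ S.P I := B_le_P I (U_le_B (x_mem_U (R.pos_simple k) _))
  rw [x_neg_eq, (S.P I).mul_mem_cancel_right hx, (S.P I).mul_mem_cancel_left hx] at h
  exact hk (mem_of_n hS (by simpa using ht) h)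

theorem adj (hS : S.Sep) {I : Set κ} {j k : κ} {x s : G} (hx : S.Cell (R.sr j) x) (hjk : j ≠ k)
    (hs : (s, R.sr k) ∈ S.NW) (hy : s * x * s⁻¹ ∈ S.P I) (hk : k ∉ I) : R.A j k = 0 := by
  have inv : ∀ i, (R.sr i)⁻¹ = R.sr i := fun i => by simp
  have h1 : S.Cell (R.sr k * R.sr j) (s * x) := by
    refine (hx.n_mul_of_pos k hs).resolve_right fun h => h.1 ?_
    rw [inv]
    exact R.pos_sr (R.pos_simple k) fun e => hjk (R.simple_inj e).symm
  have h2 := h1.inv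
  rw [mul_inv_rev, inv, inv] at h2
  have h3 : s * (s * x)⁻¹ ∈ S.P I := by
    have := (S.P I).inv_mem hy
    simpa [mul_assoc] using this
  have a1 : R.cf (R.sr j (R.sr k (R.simple k))) k = -1 := by
    rw [R.cf_sr_of_ne _ _ hjk.symm, cf_sr_self, cf_ss, wt_ss]; rfl
  rcases h2.n_mul k hs with h | h
  · have := not_cell hS hk h3 h
    rw [Equiv.Perm.mul_apply, Equiv.Perm.mul_apply, cf_sr_self, a1, R.wt_refl, R.wt_refl,
      R.pair_simple_left, R.pair_simple_left, R.wt_refl, R.pair_simple_left] at this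
    simp only [Pi.sub_apply, Pi.smul_apply, smul_eq_mul, R.wt_simple, R.A_self] at this
    have h4 : R.A j k * R.A k j = 0 := by linarith
    rcases mul_eq_zero.1 h4 with h5 | h5
    · exact h5
    · rw [← R.pair_simple_simple] at h5 ⊢
      exact (R.pair_eq_zero_iff _ _).1 h5
  · have := not_cell hS hk h3 h
    rw [Equiv.Perm.mul_apply, a1] at this
    omega

/-- roots of level at least `k` -/
def lev (R : RootSys ι κ) (i : κ) (k : ℤ) : Set ι := {r | k ≤ R.cf r i}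

theorem lev_pos {i : κ} {k : ℤ} (hk : 1 ≤ k) {r : ι} (h : r ∈ lev R i k) : R.pos r :=
  R.pos_of_cf_pos (j := i) (by have : k ≤ R.cf r i := h; omega)

theorem lev_into {i : κ} {k : ℤ} (hk : 1 ≤ k) :
    R.Into {r | R.pos r ∨ R.InJ {j | j ≠ i} r} (lev R i k) (lev R i k) := by
  intro r hr s hs
  have h1 : 0 ≤ R.cf r i := by
    rcases hr with h | h
    · exact h i
    · exact (h i (by simp)).ge
  have h2 : k ≤ R.cf s i := hs
  refine ⟨fun e => ?_, fun m a b ha hb e => ?_⟩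
  · rw [e, R.cf_neg, Pi.neg_apply] at h2; omega
  · show k ≤ R.cf m i
    rw [e]
    simp only [Pi.add_apply, Pi.smul_apply, smul_eq_mul]
    have : (1 : ℤ) ≤ b := by exact_mod_cast hb
    nlinarith [Int.natCast_nonneg a]

theorem lev_closed {i : κ} {k : ℤ} (hk : 1 ≤ k) : R.Closed (lev R i k) := fun r hr s hs =>
  (lev_into hk r (Or.inl (lev_pos hk hr)) s hs).2

theorem lev_conj {i : κ} {k : ℤ} (hk : 1 ≤ k) {m g : G} (hm : m ∈ S.P {j | j ≠ i})
    (hg : g ∈ S.U (lev R i k)) : m * g * m⁻¹ ∈ S.U (lev R i k) := by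
  have : S.P {j | j ≠ i} ≤ Subgroup.normalizer (S.U (lev R i k) : Set G) := by
    rw [P_eq]
    exact sup_le (H_le_normalizer _) (U_le_normalizer (lev_into hk))
  exact (Subgroup.mem_normalizer_iff.1 (this hm) g).1 hg

theorem mem_of_forall (hS : S.Sep) {x : G} (hx : x ∈ S.U {r | R.pos r}) {B : Set ι}
    (h : ∀ r, R.pos r → r ∉ B → ∃ A, R.Closed A ∧ (∀ s ∈ A, R.pos s) ∧ r ∉ A ∧ x ∈ S.U A) :
    x ∈ S.U B := by
  classical
  let L := (Finset.univ.filter fun r => R.pos r).toList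
  have hL : ∀ r, r ∈ L ↔ r ∈ {r | R.pos r} := fun r => by simp [L]
  obtain ⟨t, e⟩ := exists_prod closed_pos (htf κ) (fun r hr => htf_pos hr) (Finset.nodup_toList _) hL hx
  rw [e]
  refine Subgroup.list_prod_mem _ fun y hy => ?_
  obtain ⟨r, hr, rfl⟩ := List.mem_map.1 hy
  by_cases hB : r ∈ B
  · exact x_mem_U hB _
  · obtain ⟨A, a1, a2, a3, a4⟩ := h r ((hL r).1 hr) hB
    rw [hS.eq_zero_of_mem (L := L) (t := t) a1 (htf κ) (Finset.nodup_toList _)
      (fun r hr => htf_pos ((hL r).1 hr))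
      (fun r hr => (hL r).2 (a2 r hr)) (e ▸ a4) r hr a3, (hS.x_eq_one).2 rfl]
    exact Subgroup.one_mem _

theorem lowest (i : κ) {r : ι} (h : 1 ≤ R.cf r i) :
    ∃ v ∈ R.WJ {j | j ≠ i}, ∀ j, j ≠ i → R.wt (v r) j ≤ 0 := by
  obtain ⟨n, hn⟩ : ∃ n : ℕ, R.ht r ≤ n := ⟨(R.ht r).toNat, Int.self_le_toNat _⟩
  induction n generalizing r with
  | zero =>
    have := (R.pos_iff_ht_pos r).1 (R.pos_of_cf_pos (j := i) (by omega))
    simp at hn; omega
  | succ n ih =>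
    by_cases hc : ∀ j, j ≠ i → R.wt r j ≤ 0
    · exact ⟨1, Subgroup.one_mem _, hc⟩
    · push Not at hc
      obtain ⟨j, hj, hw⟩ := hc
      obtain ⟨v, hv, h3⟩ := ih (r := R.sr j r) (by rwa [R.cf_sr_of_ne _ _ hj.symm])
        (by rw [R.refl_simple, R.ht_sref]; push_cast at hn; omega)
      exact ⟨v * R.sr j, Subgroup.mul_mem _ hv (R.sr_mem_WJ hj), h3⟩

/-- a subgroup normalised by the parabolic and lying in `U T`, where `T` misses the lowest roots of level `k` -/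
theorem up (hS : S.Sep) {i : κ} {k : ℤ} (hk : 1 ≤ k) {N : Subgroup G}
    (hN : ∀ m ∈ S.P {j | j ≠ i}, ∀ g ∈ N, m * g * m⁻¹ ∈ N) {T : Set ι} (hT : R.Closed T)
    (hTk : T ⊆ lev R i k) (hNT : N ≤ S.U T)
    (hl : ∀ r, R.cf r i = k → (∀ j, j ≠ i → R.wt r j ≤ 0) → r ∉ T) : N ≤ S.U (lev R i (k + 1)) := by
  intro x hx
  refine mem_of_forall hS (U_mono (fun r hr => lev_pos hk (hTk hr)) (hNT hx)) fun r hr hB => ?_
  have hB' : ¬ (k + 1 ≤ R.cf r i) := hB
  by_cases h : R.cf r i = k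
  · obtain ⟨v, hv, h3⟩ := lowest (R := R) i (r := r) (by omega)
    obtain ⟨n, hn⟩ := exists_NW_of_W (S := S.toPreSt) (R.WJ_le_W _ hv)
    have c : ∀ s, R.cf (v s) i = R.cf s i := fun s => R.cf_WJ hv s (by simp)
    refine ⟨v ⁻¹' T, hT.preimage (NW.mem_Aut hn), fun s hs => ?_, hl _ (by rw [c, h]) h3, ?_⟩
    · have : k ≤ R.cf (v s) i := hTk hs
      rw [c] at this
      exact lev_pos hk this
    · have := NW.conj_mem_U' hn (B := v ⁻¹' T) (fun s hs => by simpa using hs)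
        (hNT (hN n (NW.mem_P hn hv) x hx))
      simpa [mul_assoc] using this
  · refine ⟨T, hT, fun s hs => lev_pos hk (hTk hs), fun h' => ?_, hNT hx⟩
    have : k ≤ R.cf r i := hTk h'
    omega

theorem le_B (hS : S.Sep) (hG : S.U Set.univ = ⊤)
    (hc : ∀ P : κ → Prop, (∀ i j, R.A i j ≠ 0 → P i → P j) → ∀ i j, P i → P j) {i : κ} {N : Subgroup G}
    (hN : ∀ m ∈ S.P {j | j ≠ i}, ∀ g ∈ N, m * g * m⁻¹ ∈ N) (h1 : N ≤ S.P {j | j ≠ i}) {s : G}
    (hs : (s, R.sr i) ∈ S.NW) (h2 : ∀ g ∈ N, s * g * s⁻¹ ∈ S.P {j | j ≠ i}) : N ≤ S.B := by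
  set I := {j | S.n (R.simple j) 1 ∈ N ⊔ S.B} with hI
  have e : N ⊔ S.B = S.P I := exists_P hS hG le_sup_right
  have hle : N ⊔ S.B ≤ S.P {j | j ≠ i} := sup_le h1 (B_le_P _)
  have hi : i ∉ I := fun h => mem_of_n hS one_ne_zero (hle h) rfl
  have hn : S.B ≤ Subgroup.normalizer (N : Set G) := fun b hb =>
    Subgroup.mem_normalizer_iff.2 fun g => ⟨hN b (B_le_P _ hb) g, fun h => by
      simpa [mul_assoc] using hN b⁻¹ (B_le_P _ (S.B.inv_mem hb)) _ h⟩
  have key : ∀ j ∈ I, ∃ x ∈ N, S.Cell (R.sr j) x := fun j hj => by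
    have : S.n (R.simple j) 1 ∈ ((N ⊔ S.B : Subgroup G) : Set G) := hj
    rw [Subgroup.coe_mul_of_right_le_normalizer_left N S.B hn] at this
    obtain ⟨x, hx, b, hb, e⟩ := this
    refine ⟨x, hx, ?_⟩
    have := (cell_of_NW (n_mem_NW (S := S.toPreSt) (R.simple j) one_ne_zero)).mul_right (S.B.inv_mem hb)
    rwa [← e, mul_inv_cancel_right] at this
  have emp : ∀ j, j ∉ I := fun j hj => hi (hc (· ∈ I) (fun j k hA hj => by
    by_contra hk
    obtain ⟨x, hx, hcell⟩ := key j hj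
    have hjk : j ≠ k := fun e => hk (e ▸ hj)
    by_cases hki : k = i
    · subst hki
      exact hA (adj hS hcell hjk hs (h2 x hx) (by simp))
    · refine hA (adj hS hcell hjk (n_mem_NW _ one_ne_zero) (I := I) ?_ hk)
      rw [← e]
      exact Subgroup.mem_sup_left (hN _ (n_mem_P hki) x hx)) j i hj)
  refine le_sup_left.trans (e.le.trans (P_le.2 ⟨le_rfl, fun j hj => absurd hj (emp j)⟩))

theorem inf_pos (hS : S.Sep) {n x : G} {w : Equiv.Perm ι} (hn : (n, w) ∈ S.NW)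
    (hx : x ∈ S.U {r | R.pos r}) (h : n * x * n⁻¹ ∈ S.U {r | R.pos r}) :
    x ∈ S.U ({r | R.pos r} ∩ {r | R.pos (w r)}) := by
  obtain ⟨a, ha, b, hb, rfl⟩ := exists_mul closed_pos (htf κ) (fun r hr => htf_pos hr) {r | R.pos (w r)} hx
  have h1 : n * a * n⁻¹ ∈ S.U {r | R.pos r} := NW.conj_mem_U hn (fun r hr => hr.2) ha
  have h2 : n * b * n⁻¹ ∈ S.U {r | ¬ R.pos r} := NW.conj_mem_U hn (fun r hr => hr.2) hb
  have h3 : n * b * n⁻¹ ∈ S.U {r | R.pos r} := by
    have := Subgroup.mul_mem _ (Subgroup.inv_mem _ h1) h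
    simpa [mul_assoc] using this
  have := eq_one_of_mem_B_neg hS h2 (U_le_B h3)
  have hb1 : b = 1 := by simpa using this
  rwa [hb1, mul_one]

section main
variable (hS : S.Sep) (hG : S.U Set.univ = ⊤) (hH : S.H = ⊥)
  (hc : ∀ P : κ → Prop, (∀ i j, R.A i j ≠ 0 → P i → P j) → ∀ i j, P i → P j) {i : κ}
  (h1 : ∀ r, r ≠ R.simple i → R.wt r i ≤ 1)
  (h2 : ∀ r, R.cf r i = 1 → (∀ j, j ≠ i → R.wt r j ≤ 0) → r = R.simple i)
  {s : G} (hs : (s, R.sr i) ∈ S.NW)
include hS hs h1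

theorem down {k : ℤ} (hk : 1 ≤ k) {g : G} (hg : g ∈ S.U (lev R i (k + 1))) :
    s⁻¹ * g * s ∈ S.U (lev R i k) := by
  refine NW.conj_mem_U' hs (fun r hr => ?_) hg
  have h3 : k + 1 ≤ R.cf r i := hr
  have h4 : r ≠ R.simple i := fun e => by rw [e, cf_ss] at h3; omega
  have := h1 r h4
  show k ≤ R.cf ((R.sr i)⁻¹ r) i
  rw [show (R.sr i)⁻¹ = R.sr i by simp, cf_sr_self]; omega

theorem Q_le_P {k : ℤ} (hk : 1 ≤ k) (J : Set κ) : S.U (lev R i k) ≤ S.P J :=
  (U_mono fun _ hr => lev_pos hk hr).trans (U_le_B.trans (B_le_P J))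

theorem mem_map {Y : Subgroup G} {g : G} :
    g ∈ Y.map (MulAut.conj s).toMonoidHom ↔ s⁻¹ * g * s ∈ Y := by
  rw [Subgroup.mem_map_equiv]; simp

theorem step {k : ℤ} (hk : 2 ≤ k) :
    core (S.P {j | j ≠ i}) (S.U (lev R i k) ⊓ (S.U (lev R i k)).map (MulAut.conj s).toMonoidHom) =
      S.U (lev R i (k + 1)) := by
  refine le_antisymm ?_ fun g hg => mem_core.2 ⟨Q_le_P hS h1 hs (by omega) _ hg, fun m hm => ?_⟩
  · have p : ∀ r ∈ R.sr i '' lev R i k, R.pos r := by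
      rintro _ ⟨r, hr, rfl⟩
      have h3 : k ≤ R.cf r i := hr
      exact R.pos_sr (lev_pos (by omega) hr) fun e => by rw [e, cf_ss] at h3; omega
    have cl : R.Closed (R.sr i '' lev R i k) := by
      have := (lev_closed (R := R) (i := i) (k := k) (by omega)).preimage (w := (R.sr i)⁻¹)
        (Subgroup.inv_mem _ (R.refl_mem_Aut _))
      rwa [Equiv.image_eq_preimage_symm]
    refine up hS (by omega) (fun m hm g hg => core_conj hm hg)
      (T := lev R i k ∩ R.sr i '' lev R i k) ((lev_closed (by omega)).inter cl) Set.inter_subset_left ?_ ?_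
    · refine core_le.trans ?_
      rw [NW.map_U hs, hS.U_inf_U (lev_closed (by omega)) cl (htf κ)
        (fun r hr => htf_pos (lev_pos (by omega) hr)) fun r hr => htf_pos (p r hr)]
    · rintro r hr hw ⟨-, r', hr', e⟩
      obtain ⟨j, -, hj⟩ := R.exists_wt_pos (r := r) (R.pos_of_cf_pos (j := i) (by omega))
      have hji : j = i := by
        by_contra h
        have := hw j h; omega
      subst hji
      have h3 : k ≤ R.cf r' j := hr'
      have e' : r' = R.sr j r := by rw [← e]; simp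
      rw [e', cf_sr_self] at h3; omega
  · have := lev_conj (by omega) hm hg
    exact ⟨U_mono (fun r (hr : k + 1 ≤ _) => (by omega : k ≤ _)) this,
      (mem_map hS h1 hs).2 (down hS h1 hs (by omega) this)⟩

include hG hH hc h2

theorem step0 :
    core (S.P {j | j ≠ i}) (S.P {j | j ≠ i} ⊓ (S.P {j | j ≠ i}).map (MulAut.conj s).toMonoidHom) =
      S.U (lev R i 2) := by
  refine le_antisymm ?_ fun g hg => mem_core.2 ⟨Q_le_P hS h1 hs (by omega) _ hg, fun m hm => ?_⟩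
  · set N := core (S.P {j | j ≠ i}) (S.P {j | j ≠ i} ⊓ (S.P {j | j ≠ i}).map (MulAut.conj s).toMonoidHom)
    have hN : ∀ m ∈ S.P {j | j ≠ i}, ∀ g ∈ N, m * g * m⁻¹ ∈ N := fun m hm g hg => core_conj hm hg
    have a2 : ∀ g ∈ N, s⁻¹ * g * s ∈ S.P {j | j ≠ i} := fun g hg => (mem_map hS h1 hs).1 (core_le hg).2
    have hs' : (s⁻¹, R.sr i) ∈ S.NW := by simpa using NW.inv hs
    have a3 : N ≤ S.U {r | R.pos r} := by
      have := le_B hS hG hc hN (core_le.trans inf_le_left) hs' (by simpa using a2)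
      rwa [PreSt.B, hH, sup_bot_eq] at this
    obtain ⟨n, hn⟩ := exists_NW_of_W (S := S.toPreSt) (R.w0_mem_W {j | j ≠ i})
    have a4 : N ≤ S.U (lev R i 1) := fun x hx => by
      refine U_mono (fun r hr => ?_) (inf_pos hS hn (a3 hx) (a3 (hN n (NW.mem_P hn (R.w0_mem _)) x hx)))
      by_contra h
      have h3 : ¬ (1 ≤ R.cf r i) := h
      have h4 : 0 ≤ R.cf r i := hr.1 i
      refine R.w0_neg (J := {j | j ≠ i}) (fun j hj => ?_) hr.1 hr.2
      have : j = i := by simpa using hj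
      subst this; omega
    have cl : R.Closed (lev R i 1 \ {R.simple i}) := fun r hr r' hr' m a b ha hb e => by
      refine ⟨lev_closed le_rfl r hr.1 r' hr'.1 m a b ha hb e, fun hm => ?_⟩
      have b1 : 1 ≤ R.cf r i := hr.1
      have b2 : 1 ≤ R.cf r' i := hr'.1
      have := congrFun e i
      rw [show m = R.simple i from hm, cf_ss] at this
      simp only [Pi.add_apply, Pi.smul_apply, smul_eq_mul] at this
      have a' : (1 : ℤ) ≤ a := by exact_mod_cast ha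
      have b' : (1 : ℤ) ≤ b := by exact_mod_cast hb
      nlinarith
    refine up hS le_rfl hN cl Set.diff_subset (fun x hx => ?_) fun r hr hw h => h.2 (h2 r hr hw)
    obtain ⟨a, ha, b, hb, rfl⟩ := exists_mul (lev_closed le_rfl) (htf κ)
      (fun r hr => htf_pos (lev_pos le_rfl hr)) {R.simple i} (a4 hx)
    obtain ⟨t, rfl⟩ := mem_U_singleton.1 (U_mono Set.inter_subset_right ha)
    have b1 : s⁻¹ * b * s⁻¹⁻¹ ∈ S.P {j | j ≠ i} := B_le_P _ (U_le_B (NW.conj_mem_U hs'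
      (fun r hr => R.pos_sr (lev_pos le_rfl hr.1) hr.2) hb))
    have b2 : s⁻¹ * S.x (R.simple i) t * s ∈ S.P {j | j ≠ i} := by
      have := Subgroup.mul_mem _ (a2 _ hx) (Subgroup.inv_mem _ b1)
      simpa [mul_assoc] using this
    obtain ⟨c, hc0, e⟩ := NW.act hs' (R.simple i)
    rw [e, inv_mul_cancel_right, show R.sr i (R.simple i) = R.neg (R.simple i) by simp] at b2
    have := neg_zero hS (by simp) b2
    rw [(mul_eq_zero.1 this).resolve_left hc0, hS.x_eq_one.2 rfl, one_mul]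
    exact hb
  · have := lev_conj (by omega) hm hg
    exact ⟨Q_le_P hS h1 hs (by omega) _ this,
      (mem_map hS h1 hs).2 (Q_le_P hS h1 hs le_rfl _ (down hS h1 hs le_rfl this))⟩

theorem main [IsSimpleGroup G] (h6 : ∃ r, 6 ≤ R.cf r i) (h7 : ∀ r, R.cf r i < 7) :
    ∃ (M₁ M₂ : Subgroup G) (g : G) (A B : ℕ → Subgroup G),
      IsCoatom M₁ ∧ M₂ = M₁.map (MulAut.conj g).toMonoidHom ∧ M₁ ≠ M₂ ∧ M₁.normalCore = ⊥ ∧ A 0 = M₁ ∧
      B 0 = M₂ ∧ (∀ i, A (i + 1) = core M₁ (A i ⊓ B i)) ∧ (∀ i, B (i + 1) = core M₂ (A i ⊓ B i)) ∧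
      A 6 = ⊥ ∧ A 5 ≠ ⊥ := by
  let A : ℕ → Subgroup G := fun n => match n with
    | 0 => S.P {j | j ≠ i}
    | n + 1 => S.U (lev R i (n + 2))
  have ss : s * s = 1 := by
    have := mem_H_of_NW (S := S) (g := s * s) (by simpa using NW.mul hs hs)
    rwa [hH, Subgroup.mem_bot] at this
  have hA : ∀ n, A (n + 1) = core (S.P {j | j ≠ i}) (A n ⊓ (A n).map (MulAut.conj s).toMonoidHom) := by
    intro n
    cases n with
    | zero => exact (step0 hS hG hH hc h1 h2 hs).symm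
    | succ n =>
      have := step hS h1 hs (k := n + 2) (by omega)
      refine Eq.trans ?_ this.symm
      show S.U (lev R i _) = _
      congr 2
  have nt : S.P {j | j ≠ i} ≠ ⊤ := fun e =>
    mem_of_n hS (I := {j | j ≠ i}) (k := i) one_ne_zero (e ▸ Subgroup.mem_top _) rfl
  refine ⟨S.P {j | j ≠ i}, _, s, A, fun n => (A n).map (MulAut.conj s).toMonoidHom, ⟨nt, fun M hM => ?_⟩,
    rfl, fun e => ?_, ?_, rfl, rfl, hA, fun n => ?_, ?_, fun e => ?_⟩
  · have e := exists_P hS hG ((B_le_P _).trans hM.le)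
    by_cases hi : S.n (R.simple i) 1 ∈ M
    · rw [eq_top_iff, ← hG, ← P_univ]
      refine P_le.2 ⟨(B_le_P _).trans hM.le, fun j _ => ?_⟩
      by_cases hj : j = i
      · exact hj ▸ hi
      · exact hM.le (n_mem_P hj)
    · refine absurd (e.le.trans (P_le.2 ⟨B_le_P _, fun j hj => n_mem_P ?_⟩)) hM.not_ge
      rintro rfl
      exact hi hj
  · have b : s * S.x (R.simple i) 1 * s⁻¹ ∈ S.P {j | j ≠ i} := by
      rw [e]
      exact ⟨_, B_le_P _ (U_le_B (x_mem_U (R.pos_simple i) 1)), rfl⟩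
    obtain ⟨c, hc0, e⟩ := NW.act hs (R.simple i)
    rw [e, mul_inv_cancel_right, show R.sr i (R.simple i) = R.neg (R.simple i) by simp] at b
    exact hc0 (by simpa using neg_zero hS (by simp) b)
  · exact (Subgroup.normalCore_normal _).eq_bot_or_eq_top.resolve_right fun e =>
      nt (eq_top_iff.2 (e ▸ Subgroup.normalCore_le _))
  · have inv : ∀ Y : Subgroup G, (Y.map (MulAut.conj s).toMonoidHom).map (MulAut.conj s).toMonoidHom = Y :=
      fun Y => by
        ext g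
        have : s⁻¹ = s := inv_eq_of_mul_eq_one_right ss
        rw [mem_map hS h1 hs, mem_map hS h1 hs, this, ← mul_assoc, ← mul_assoc, ss, one_mul, mul_assoc, ss,
          mul_one]
    show (A (n + 1)).map _ = _
    rw [hA, ← core_map (MulAut.conj s), Subgroup.map_inf _ _ _ (MulAut.conj s).injective, inv, inf_comm]
  · show S.U (lev R i _) = ⊥
    refine eq_bot_iff.2 (U_le.2 fun r hr => ?_)
    have := h7 r
    have hr' : ((5 : ℕ) : ℤ) + 2 ≤ R.cf r i := hr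
    push_cast at hr'; omega
  · obtain ⟨r, hr⟩ := h6
    have : S.x r 1 ∈ A 5 := x_mem_U (A := lev R i ((4 : ℕ) + 2)) (show _ ≤ _ by omega) 1
    rw [e, Subgroup.mem_bot, hS.x_eq_one] at this
    exact one_ne_zero this

end main

/-- the node `α₄` of `E₈` -/
def i4 : Fin Cfsg.Lie.chevE8.rank := ⟨3, by decide⟩

theorem tab : (∀ r : Fin Cfsg.Lie.chevE8.nroots, (r : ℕ) ≠ Cfsg.Lie.chevE8.simple 3 → tabE8.wt r 3 ≤ 1) ∧
    (∀ r : Fin Cfsg.Lie.chevE8.nroots, tabE8.cf r 3 = 1 →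
      (∀ j : Fin Cfsg.Lie.chevE8.rank, j ≠ i4 → tabE8.wt r j ≤ 0) → (r : ℕ) = Cfsg.Lie.chevE8.simple 3) ∧
    (∃ r : Fin Cfsg.Lie.chevE8.nroots, 6 ≤ tabE8.cf r 3) ∧
    ∀ r : Fin Cfsg.Lie.chevE8.nroots, tabE8.cf r 3 < 7 := by decide +kernel

theorem e8 : ∃ (M₁ M₂ : Subgroup (Cfsg.Lie.chevE8.group (ZMod 2))) (g : Cfsg.Lie.chevE8.group (ZMod 2))
    (A B : ℕ → Subgroup (Cfsg.Lie.chevE8.group (ZMod 2))),
      IsCoatom M₁ ∧ M₂ = M₁.map (MulAut.conj g).toMonoidHom ∧ M₁ ≠ M₂ ∧ M₁.normalCore = ⊥ ∧ A 0 = M₁ ∧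
      B 0 = M₂ ∧ (∀ i, A (i + 1) = core M₁ (A i ⊓ B i)) ∧ (∀ i, B (i + 1) = core M₂ (A i ⊓ B i)) ∧
      A 6 = ⊥ ∧ A 5 ≠ ⊥ := by
  have := (goodE8.simple_of_perfect (ZMod 2) (perfect_of_mem (by simp) (ZMod 2))).1
  have w : ∀ r j, goodE8.R.wt r j = tabE8.wt r j := okE8.wt_rootSys
  obtain ⟨t1, t2, t3, t4⟩ := tab
  refine main (S := goodE8.SG (ZMod 2)) (goodE8.SG_sep _) (goodE8.SG_top _) ?_ goodE8.conn (i := i4)
    (fun r hr => ?_) (fun r h1 h2 => ?_) (n_mem_NW _ one_ne_zero) t3 t4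
  · refine eq_bot_iff.2 (H_le.2 fun r t ht => ?_)
    have : t = 1 := by revert t; decide
    rw [this, PreSt.h_one]; exact Subgroup.one_mem _
  · rw [w]; exact t1 r fun e => hr (Fin.ext e)
  · exact Fin.ext (t2 r h1 fun j hj => w r j ▸ h2 j hj)

end H15.Core6
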