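import Cfsg.Agent.H16.Tab3

/-! Stabilisers of sets of points in models given by permutation networks. -/

set_option autoImplicit false

namespace H15.FS
open H16 (evA sumL reachX reachW maskL popM nth)
open H26 (Tab)
open Subgroup
open scoped commutatorElement

variable {Γ : Type*} [Group Γ] (φ : Γ →* Equiv.Perm ℕ)

/-- point stabiliser -/
def St (r : ℕ) : Subgroup Γ := (MulAction.stabilizer _ r).comap φ

/-- pointwise stabiliser -/
def Fx (B : List ℕ) : Subgroup Γ := ⨅ b ∈ B, St φ b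

/-- set stabiliser -/
def SM (X : ℕ) : Subgroup Γ where
  carrier := {a | ∀ q, X.testBit (φ a q) = X.testBit q}
  one_mem' := by simp
  mul_mem' ha hb q := by rw [map_mul]; exact (ha _).trans (hb q)
  inv_mem' {a} ha q := by rw [← ha]; simp

/-- lower chain -/
def Low : List (ℕ × ℕ) → Subgroup Γ → Prop
  | [], _ => True
  | l :: L, A => (∀ q, l.2.testBit q → ∃ a ∈ A, φ a l.1 = q) ∧ Low L (A ⊓ St φ l.1)

/-- exact chain -/
def Ch : List (ℕ × ℕ) → Subgroup Γ → Prop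
  | [], A => A = ⊥
  | l :: L, A => (∀ q, l.2.testBit q ↔ ∃ a ∈ A, φ a l.1 = q) ∧ Ch L (A ⊓ St φ l.1)

/-- product of the orbit lengths -/
noncomputable def pr (L : List (ℕ × ℕ)) : ℕ := (L.map fun l => {q | l.2.testBit q}.ncard).prod

variable {φ} {A B : Subgroup Γ} {L L' : List (ℕ × ℕ)}

theorem mem_Fx {B : List ℕ} {a : Γ} : a ∈ Fx φ B ↔ ∀ b ∈ B, φ a b = b := by
  simp [Fx, St, mem_iInf]

theorem card_eq (A : Subgroup Γ) (r : ℕ) :
    Nat.card A = {q | ∃ a ∈ A, φ a r = q}.ncard * Nat.card (A ⊓ St φ r : Subgroup Γ) := by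
  let _ := MulAction.compHom ℕ (φ.comp A.subtype)
  rw [← (MulAction.stabilizer A r).index_mul_card, MulAction.index_stabilizer, inf_comm,
    ← Nat.card_congr (subgroupOfEquivOfLe (inf_le_right : St φ r ⊓ A ≤ A)).toEquiv, inf_subgroupOf_right]
  congr 2
  exact Set.ext fun q => ⟨fun ⟨a, h⟩ => ⟨a, a.2, h⟩, fun ⟨a, h, e⟩ => ⟨⟨a, h⟩, e⟩⟩

theorem Low.mono (h : Low φ L A) (hA : A ≤ B) : Low φ L B := by
  induction L generalizing A B with
  | nil => trivial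
  | cons l L ih => exact ⟨fun q hq => (h.1 q hq).imp fun _ a => ⟨hA a.1, a.2⟩, ih h.2 (inf_le_inf_right _ hA)⟩

theorem fin [Finite Γ] (A : Subgroup Γ) (r : ℕ) : {q | ∃ a ∈ A, φ a r = q}.Finite :=
  (Set.finite_range fun a => φ a r).subset fun _ ⟨a, _, e⟩ => ⟨a, e⟩

theorem Low.le [Finite Γ] (h : Low φ L A) : pr L ≤ Nat.card A := by
  induction L generalizing A with
  | nil => exact Nat.card_pos
  | cons l L ih =>
    rw [card_eq (φ := φ) A l.1]
    exact Nat.mul_le_mul (Set.ncard_le_ncard h.1 (fin A _)) (ih h.2)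

theorem Low.ch [Finite Γ] (h : Low φ L A) (hc : Nat.card A ≤ pr L) : Ch φ L A := by
  induction L generalizing A with
  | nil => exact eq_bot_of_card_le A hc
  | cons l L ih =>
    rw [card_eq (φ := φ) A l.1] at hc
    have a := Set.ncard_le_ncard (s := {q | l.2.testBit q}) h.1 (fin A _)
    have b := h.2.le
    have c := (Set.ncard_pos (fin (φ := φ) A l.1)).2 ⟨_, 1, one_mem _, rfl⟩
    have d : 0 < Nat.card (A ⊓ St φ l.1 : Subgroup Γ) := Nat.card_pos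
    change _ ≤ _ * pr L at hc
    exact ⟨Set.ext_iff.1 (Set.eq_of_subset_of_ncard_le (s := {q | l.2.testBit q}) h.1
      (Nat.le_of_mul_le_mul_right (hc.trans (Nat.mul_le_mul_left _ b)) d) (fin A _)),
      ih h.2 (Nat.le_of_mul_le_mul_left (hc.trans (Nat.mul_le_mul_right _ a)) c)⟩

theorem Ch.card (h : Ch φ L A) : Nat.card A = pr L := by
  induction L generalizing A with
  | nil => exact card_eq_one.2 h
  | cons l L ih => rw [card_eq (φ := φ) A l.1, ih h.2, ← Set.ext (a := {q | l.2.testBit q}) h.1]; rfl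

theorem Ch.base (h : Ch φ L A) {a : Γ} (ha : a ∈ A) (hf : a ∈ Fx φ (L.map (·.1))) : a = 1 := by
  induction L generalizing A with
  | nil => exact mem_bot.1 (h ▸ ha)
  | cons l L ih =>
    obtain ⟨x, y⟩ := List.forall_mem_cons.1 (mem_Fx.1 hf)
    exact ih h.2 ⟨ha, x⟩ (mem_Fx.2 y)

theorem Ch.sub {X : ℕ} (h : Ch φ L A) (hB : B ≤ A ⊓ SM φ X) (hl : Low φ L' B) (hr : List.Forall₂
    (fun l l' => l.1 = l'.1 ∧ l.2 &&& cond (X.testBit l.1) X l.2 = l'.2) L L') : Ch φ L' B := by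
  induction hr generalizing A B with
  | nil => exact eq_bot_iff.2 (hB.trans (inf_le_left.trans h.le))
  | @cons l l' _ _ e _ ih =>
    refine ⟨fun q => ⟨hl.1 q, fun ⟨a, ha, b⟩ => ?_⟩, ih h.2 (fun a ha => ⟨⟨(hB ha.1).1, e.1 ▸ ha.2⟩, (hB ha.1).2⟩) hl.2⟩
    rw [← e.1] at b
    have c := (h.1 q).2 ⟨a, (hB ha).1, b⟩
    have d := (hB ha).2 l.1
    rw [← e.2, Nat.testBit_and, c]
    cases f : X.testBit l.1
    exacts [c, b ▸ d.trans f]

theorem pop {e m n : ℕ} (h : popM e m = n ∧ m < 2 ^ (20 * e) ∧ e < 1048575) : {q | m.testBit q}.ncard = n := by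
  rw [← h.1, H16.popM_eq h.2.2, H16.cnt_eq_card, ← Set.ncard_coe_finset]
  congr 1
  refine Set.ext fun q => ⟨fun a => Finset.mem_filter.2 ⟨Finset.mem_range.2 ?_, a⟩, fun a => (Finset.mem_filter.1 a).2⟩
  exact (Nat.pow_lt_pow_iff_right one_lt_two).1 ((Nat.ge_two_pow_of_testBit a).trans_lt h.2.1)

theorem pr_cons {e r m n c : ℕ} (h : popM e m = n ∧ m < 2 ^ (20 * e) ∧ e < 1048575) (ih : pr L = c) :
    pr ((r, m) :: L) = n * c := by rw [← ih, ← pop h]; rfl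

/-- zero iff the word preserves the set -/
noncomputable def pres (T : Tab) (R : ℕ) (w : List ℕ) (X : ℕ) : ℕ :=
  Nat.xor (Nat.xor (T.pullW w (Nat.xor X R)) (T.pullW w R)) X

/-- zero iff the word fixes the points -/
noncomputable def fixW (T : Tab) (R : ℕ) (B w : List ℕ) : ℕ := sumL (fun b => pres T R w (Nat.pow 2 b)) B

/-- the commutator check -/
def comW (y h y' : List ℕ) : List ℕ :=
  (h.reverse ++ y.reverse ++ h) ++ y.reverse ++ (h.reverse ++ y ++ h) ++ y ++ y'.reverse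

variable {T : Tab} (h : T.WF) {γ : ℕ → Γ} (hγ : ∀ k, φ (γ k) = T.π k) {R : ℕ}
include h hγ

theorem mem_SM {w : List ℕ} {X : ℕ} (hc : pres T R w X = 0) : evA γ w ∈ SM φ X := fun q => by
  have := congrArg (Nat.testBit · q) (H16.xor_zero hc)
  change (T.pullW w (X ^^^ R) ^^^ T.pullW w R).testBit q = _ at this
  rw [H16.map_evA, funext hγ, ← this]
  simp [H16.pull_bit h]

theorem fix_of {B w : List ℕ} (hc : fixW T R B w = 0) : evA γ w ∈ Fx φ B := mem_Fx.2 fun b hb => by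
  simpa [Nat.testBit_two_pow, eq_comm] using mem_SM h hγ (X := 2 ^ b) (H16.sumL_zero hc b hb) b

theorem reach {Ws : List (List ℕ)} (hA : ∀ w ∈ Ws, evA γ w ∈ A) {L B : List ℕ} {q : ℕ}
    (hq : (reachX T R Ws L (maskL B)).testBit q) : ∃ b ∈ B, ∃ a ∈ A, φ a b = q := by
  obtain ⟨b, hb, _, ⟨a, ha, rfl⟩, e⟩ := H16.reach_orb h (U := A.map φ) (fun w hw =>
    ⟨_, hA w hw, by rw [H16.map_evA, funext hγ]⟩) L B q (H16.reachX_eq h R Ws L _ ▸ hq)
  exact ⟨b, hb, a, ha, e⟩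

theorem lv {Ws : List (List ℕ)} (hA : ∀ w ∈ Ws, evA γ w ∈ A) {J B : List ℕ} {r m : ℕ}
    (hc : sumL (fixW T R B) Ws = 0 ∧ reachX T R Ws J (maskL [r]) = m) (ih : Low φ L (A ⊓ Fx φ (r :: B))) :
    Low φ ((r, m) :: L) (A ⊓ Fx φ B) :=
  ⟨fun q hq => by
    obtain ⟨b, hb, e⟩ := reach h hγ (A := A ⊓ Fx φ B) (fun w hw => ⟨hA w hw, fix_of h hγ
      (H16.sumL_zero hc.1 w hw)⟩) (hc.2 ▸ hq)
    rwa [List.mem_singleton.1 hb] at e,
  ih.mono fun a ha => by
    obtain ⟨x, y⟩ := List.forall_mem_cons.1 (mem_Fx.1 ha.2)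
    exact ⟨⟨ha.1, mem_Fx.2 y⟩, x⟩⟩

omit h hγ in
theorem evA_rev (hs : ∀ k, γ k * γ k = 1) (w : List ℕ) : evA γ w.reverse = (evA γ w)⁻¹ := by
  induction w with
  | nil => simp
  | cons k w ih => simp [H16.evA_append, ih, inv_eq_of_mul_eq_one_left (hs k)]

theorem der (hs : ∀ k, γ k * γ k = 1) (hC : Ch φ L ⊤) {X k : ℕ} {y c y' : List ℕ}
    (hy : evA γ y ∈ (derivedSeries (SM φ X) k).map (SM φ X).subtype)
    (hc : pres T R c X = 0 ∧ fixW T R (L.map (·.1)) (comW y c y') = 0) :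
    evA γ y' ∈ (derivedSeries (SM φ X) (k + 1)).map (SM φ X).subtype := by
  have a := hC.base (mem_top _) (fix_of h hγ hc.2)
  obtain ⟨x, hx, e⟩ := hy
  refine ⟨_, commutator_mem_commutator hx ((derivedSeries_normal _ k).conj_mem x hx ⟨_, mem_SM h hγ hc.1⟩), ?_⟩
  simp only [comW, H16.evA_append, evA_rev hs, ← e, subtype_apply] at a
  simpa [commutatorElement_def, mul_assoc] using (inv_mul_eq_one.1 a).symm

/-- maximality of the stabiliser of a set of transpositions -/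
theorem coatom [IsSimpleGroup Γ] {N m X : ℕ} (hs : ∀ k, γ k * γ k = 1) (h1 : γ m ≠ 1)
    (hN : ∀ a, φ a 0 < N) (hm : ∀ a, φ a 0 = 0 → Commute a (γ m)) {Ws : List (List ℕ)}
    (hW : ∀ w ∈ Ws, evA γ w ∈ SM φ X) (h2 : [m] ∈ Ws) (hX : ∀ q, X.testBit q → ∃ a ∈ SM φ X, φ a 0 = q)
    {J : List ℕ} {Rs : List (ℕ × List ℕ × List ℕ)}
    (h3 : X ||| reachX T R Ws J (maskL (Rs.map (·.1))) = 2 ^ N - 1)
    (h4 : ∀ r ∈ Rs, (T.pullW r.2.1 (2 ^ r.1)).testBit 0 ∧ X.testBit r.1 = false ∧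
      reachX T R ((r.2.1.reverse ++ m :: r.2.1) :: Ws) r.2.2 (maskL [0]) = 2 ^ N - 1) (h5 : Rs ≠ [] ∧ X.testBit 0) :
    IsCoatom (SM φ X) := by
  have hb : ∀ r ∈ Rs, φ (evA γ r.2.1) 0 = r.1 := fun r hr => by
    have := (h4 r hr).1
    rw [H16.pull_bit h, ← funext hγ, ← H16.map_evA] at this
    simpa [Nat.testBit_two_pow, eq_comm] using this
  refine ⟨fun e => ?_, fun K hK => ?_⟩
  · obtain ⟨r, hr⟩ := List.exists_mem_of_ne_nil _ h5.1
    have := (e ▸ mem_top (evA γ r.2.1) : _ ∈ SM φ X) 0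
    rw [hb r hr, (h4 r hr).2.1, h5.2] at this
    cases this
  let S := fun u => ∃ a, φ a 0 = u ∧ a * γ m * a⁻¹ ∈ K
  have s1 : ∀ k ∈ K, ∀ u, S u → S (φ k u) := fun k hk u ⟨a, e, b⟩ => ⟨k * a, by rw [map_mul, ← e]; rfl, by
    simpa [mul_assoc] using K.mul_mem (K.mul_mem hk b) (K.inv_mem hk)⟩
  have s2 : ∀ b, S (φ b 0) → b * γ m * b⁻¹ ∈ K := fun b ⟨a, e, c⟩ => by
    have := (hm (b⁻¹ * a) (by simp [e])).eq
    rwa [show b * γ m * b⁻¹ = a * γ m * a⁻¹ by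
      rw [← mul_inv_cancel_left b a, mul_assoc b (_ * _), this]; group]
  have s0 : S 0 := ⟨1, by simp, by simpa using hK.le (hW _ h2)⟩
  by_contra hT
  have s3 : ∀ u, S u → X.testBit u := fun u hu => by
    by_contra hx
    have l : u < N := hu.choose_spec.1 ▸ hN _
    have a := congrArg (Nat.testBit · u) h3
    simp only [Nat.testBit_or, Nat.testBit_two_pow_sub_one, l, Bool.eq_false_iff.2 hx, decide_true, Bool.false_or] at a
    obtain ⟨_, hr, x, hx', rfl⟩ := reach h hγ hW a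
    obtain ⟨r, hr', rfl⟩ := List.mem_map.1 hr
    have b := s1 _ (K.inv_mem (hK.le hx')) _ hu
    simp only [map_inv, Equiv.Perm.coe_inv, Equiv.symm_apply_apply] at b
    have c := s2 _ (hb r hr' ▸ b)
    refine hT (eq_top_iff.2 (((normalClosure_normal (s := {γ m})).eq_bot_or_eq_top.resolve_left fun e => h1
      (mem_bot.1 (e ▸ subset_normalClosure rfl))).ge.trans ((closure_le _).2 fun y hy => ?_)))
    obtain ⟨_, rfl, y, rfl⟩ := Group.mem_conjugatesOfSet_iff.trans (exists_congr fun _ => and_congr_right'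
      isConj_iff) |>.1 hy
    obtain ⟨_, h0, k, hk, e⟩ := reach h hγ (A := K) (Ws := (r.2.1.reverse ++ m :: r.2.1) :: Ws)
      (List.forall_mem_cons.2 ⟨by simpa [H16.evA_append, evA_rev hs, mul_assoc] using c, fun w hw => hK.le (hW w hw)⟩)
      (q := φ y 0) (by rw [(h4 r hr').2.2]; simp [hN])
    exact s2 y (e ▸ List.mem_singleton.1 h0 ▸ s1 k hk _ s0)
  have s4 : ∀ k ∈ K, ∀ u, X.testBit u → X.testBit (φ k u) := fun k hk u hu => by
    obtain ⟨a, ha, rfl⟩ := hX u hu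
    exact s3 _ (s1 k hk _ (s1 a (hK.le ha) _ s0))
  exact hK.not_ge fun k hk q => Bool.eq_iff_iff.2 ⟨fun a => by simpa using s4 _ (K.inv_mem hk) _ a, s4 k hk q⟩

end H15.FS
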