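import Cfsg.Agent.H17.FV0

/-! S5720 chunk `S2`. -/

set_option autoImplicit false
set_option linter.unusedVariables false

open Module H17.FV

namespace H15.FV

universe v w

theorem Upow {K A : Type*} [Field K] [Ring A] [Algebra K A] {p : ℕ} (D : Dat K A p) (c : ZMod p) (n : ℕ) :
    D.U c ^ n = D.U (n * c) := by
  induction n with
  | zero => simp [D.U0]
  | succ n ih => rw [pow_succ, ih, ← D.Uadd]; congr 1; push_cast; ring

theorem s2 : H17.FV.S2.{v, w} := by
  intro K A M _ _ _ _ _ _ _ _ p _ _ D ν hp hν ef s j v c h hj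
  obtain ⟨b, hb⟩ := h.bas
  have sm : ∀ (y : A) (k : K) (m : M), y • k • m = k • y • m := fun y k m => (act K M y).map_smul k m
  have Hv : ∀ l : (ZMod p)ˣ, D.H l • v = D.φ ((l : ZMod p) ^ j) • v := fun l => by
    conv_lhs => rw [← h.wt, ← mul_smul, ef.Hπ, smul_assoc, h.wt]
  have zv : D.H (-1) • v = -v := by
    rw [Hv, Units.val_neg, Units.val_one, hj.neg_one_pow, map_neg, map_one, neg_one_smul]
  have z : act K M (D.H (-1)) = (-1 : K) • LinearMap.id := b.ext fun i => by
    show D.H (-1) • b i = (-1 : K) • b i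
    rw [hb, ← mul_smul, D.zc, mul_smul, zv, smul_neg, neg_one_smul]
  have zm : ∀ m : M, D.H (-1) • m = -m := fun m => (LinearMap.congr_fun z m).trans (neg_one_smul K m)
  have fr : finrank K M = s := by simpa using finrank_eq_card_basis b
  constructor
  · let δ : A →* K := LinearMap.det.comp (Algebra.lsmul K K M : A →ₐ[K] End K M).toMonoidHom
    have u : δ (D.U (-1)) = 1 := by
      have : δ (D.U (-1)) ^ p = 1 := by
        rw [← map_pow, Upow, ZMod.natCast_self, zero_mul, D.U0, map_one]
      have e : (δ (D.U (-1)) - 1) ^ p = 0 := by rw [sub_pow_char, this, one_pow, sub_self]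
      exact sub_eq_zero.1 (pow_eq_zero_iff (by omega) |>.1 e)
    have a3 : δ D.w ^ 3 = 1 := by
      have := congrArg δ (D.cube 1)
      rwa [map_pow, map_mul, map_mul, D.H1, inv_one, Units.val_one, u, map_one, mul_one, mul_one] at this
    have a2 : δ D.w * δ D.w = (-1) ^ s := by
      rw [← map_mul, D.ww]
      show LinearMap.det (act K M (D.H (-1))) = _
      rw [z, LinearMap.det_smul, fr, LinearMap.det_id, mul_one]
    have a4 : δ D.w = 1 := by
      have : δ D.w ^ 3 * δ D.w = 1 := by
        calc δ D.w ^ 3 * δ D.w = (δ D.w * δ D.w) ^ 2 := by ring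
          _ = 1 := by rw [a2, ← pow_mul, mul_comm, pow_mul]; simp
      rwa [a3, one_mul] at this
    rw [a4, one_mul] at a2
    by_contra hs
    rw [(Nat.not_even_iff_odd.1 hs).neg_one_pow] at a2
    have : ((2 : ℕ) : K) = 0 := by push_cast; linear_combination a2
    have := Nat.le_of_dvd (by norm_num) ((CharP.cast_eq_zero_iff K p 2).1 this)
    omega
  · rintro rfl
    have b0 : b 0 = v := by simpa using hb 0
    have b1 : b 1 = D.e • v := by simpa using hb 1
    have n1 : D.e • v ≠ 0 := b1 ▸ b.ne_zero 1
    have ee : D.e • D.e • v = 0 := by rw [← mul_smul, ← sq]; exact h.nil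
    have w1 : D.w • D.e • v = c • v := by simpa using h.top
    have w0 : c • D.w • v = -(D.e • v) := by rw [← sm, ← w1, ← mul_smul, D.ww, zm]
    have k : ∀ (x : ZMod p) (m : M), D.e • D.e • m = 0 → D.U x • m = m - D.φ x • D.e • m := fun x m hm => by
      obtain ⟨y, hy, e⟩ := ef.Ue x
      have : Commute D.e y := Algebra.commute_of_mem_adjoin_of_forall_mem_commute hy (by
        rintro _ rfl; exact Commute.refl _)
      rw [e, (this.mul_left this).eq, add_smul, sub_smul, one_smul, smul_assoc, mul_smul, mul_smul, hm, smul_zero,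
        add_zero]
    have U1 : ∀ x, D.U x • D.e • v = D.e • v := fun x => by
      rw [k x _ (by rw [ee, smul_zero]), ee, smul_zero, sub_zero]
    have H1 : ∀ l : (ZMod p)ˣ, D.H l • D.e • v = (D.φ l ^ (j + 2)) • D.e • v := fun l => by
      rw [← mul_smul, ef.He, smul_assoc, mul_smul, Hv, sm, smul_smul, ← map_mul, ← pow_add, add_comm, map_pow]
    have q : ∀ l : (ZMod p)ˣ, c = -D.φ l ^ (j + 1) := fun l => by
      have := congrArg (fun y : A => D.e • y • D.e • v) (D.wUw l)
      simp only [mul_smul] at this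
      rw [w1, U1, H1, zm, sm, k _ v ee, sm D.w c, smul_sub D.w, sm D.w, w1, smul_sub c, w0, sm D.w, w1, sm, sm,
        k _ v ee] at this
      simp only [smul_sub, smul_neg, sm, ee, smul_smul, map_neg, smul_zero, neg_zero, zero_sub, sub_zero,
        neg_smul, mul_neg, neg_mul, neg_neg] at this
      have l0 : D.φ l ≠ 0 := (map_ne_zero _).2 l.ne_zero
      have e := (smul_left_injective K n1) (this.trans (neg_smul _ _).symm)
      apply mul_left_cancel₀ (mul_ne_zero h.c0 l0)
      linear_combination e
    have o : ν ^ (j + 1) = 1 := by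
      have := (q ν).symm.trans (q 1)
      rw [neg_inj, Units.val_one, map_one, one_pow, ← map_pow, ← map_one D.φ] at this
      exact Units.ext (by simpa using D.φ.injective this)
    have m : j ≡ p - 2 [MOD p - 1] := by
      have := hν ▸ orderOf_dvd_of_pow_eq_one o
      refine Nat.ModEq.add_right_cancel' 1 ?_
      rw [show p - 2 + 1 = p - 1 by omega]
      exact (Nat.modEq_zero_iff_dvd.2 this).trans (Nat.modEq_zero_iff_dvd.2 dvd_rfl).symm
    have wt : D.π (p - 2) • v = v := ef.per _ _ m ▸ h.wt
    have ot : ∀ i, i < p - 2 → D.π i • v = 0 := fun i hi => by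
      rw [← wt, ← mul_smul, ef.orth, zero_smul]
      intro e
      have := Nat.ModEq.eq_of_lt_of_lt e (by omega) (by omega)
      omega
    have p3 : act K M (D.π 3) = 0 := b.ext fun i => by
      show D.π 3 • b i = 0
      fin_cases i
      · exact b0 ▸ ot 3 (by omega)
      · show D.π (1 + 2) • b 1 = 0
        rw [b1, ← mul_smul, ← ef.eπ, mul_smul, ot 1 (by omega), smul_zero]
    have r1 : 0 < rk K M (D.e * D.π (p - 2)) := finrank_pos_iff_exists_ne_zero.2
      ⟨⟨_, v, rfl⟩, fun e => n1 (by
        have : (D.e * D.π (p - 2)) • v = 0 := congrArg Subtype.val e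
        rwa [mul_smul, wt] at this)⟩
    have r3 : rk K M (D.π 3) = 0 := by rw [rk, p3, LinearMap.range_zero, finrank_bot]
    unfold Dat.Ineq
    omega

end H15.FV
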