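import Cfsg.Agent.H7.ME0
import Cfsg.Agent.S5054
import Cfsg.Agent.H1.Core

/-! Maximal subgroups of `E₇(2)`: the component generated by the root involutions. -/

set_option autoImplicit false

namespace H15.ME

open H18.E7 (G)
open H7.ME Subgroup

theorem D_cj {d : G} (h : d ∈ D) (g : G) : g * d * g⁻¹ ∈ D := by
  obtain ⟨k, rfl⟩ := h
  exact ⟨g * k, by group⟩

theorem cl_D {K : Subgroup G} {e : G} (h : e ∈ cl K) : e ∈ D := by
  obtain ⟨m, -, rfl⟩ := h
  exact ⟨m, rfl⟩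

theorem cl_cj {K : Subgroup G} {e m : G} (h : e ∈ cl K) (hm : m ∈ K) : m * e * m⁻¹ ∈ cl K := by
  obtain ⟨k, hk, rfl⟩ := h
  exact ⟨m * k, K.mul_mem hm hk, by group⟩

theorem cl_mem {K : Subgroup G} (hz : z ∈ K) {e : G} (h : e ∈ cl K) : e ∈ K := by
  obtain ⟨k, hk, rfl⟩ := h
  exact K.mul_mem (K.mul_mem hk hz) (K.inv_mem hk)

theorem z_cl (K : Subgroup G) : z ∈ cl K := ⟨1, K.one_mem, by group⟩

theorem cj_fix {p : G} (h : Commute p z) : p * z * p⁻¹ = z := by rw [h.eq]; group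

theorem cj_comm {p x : G} (h : Commute p z) : Commute z (p * x * p⁻¹) ↔ Commute z x := by
  have e := cj_fix h
  constructor
  · intro c
    have : p * (z * x) * p⁻¹ = p * (x * z) * p⁻¹ := by
      calc p * (z * x) * p⁻¹ = (p * z * p⁻¹) * (p * x * p⁻¹) := by group
        _ = (p * x * p⁻¹) * (p * z * p⁻¹) := by rw [e, c.eq]
        _ = _ := by group
    exact mul_left_cancel (mul_right_cancel this)
  · intro c
    show z * _ = _ * z
    calc z * (p * x * p⁻¹) = (p * z * p⁻¹) * (p * x * p⁻¹) := by rw [e]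
      _ = p * (z * x) * p⁻¹ := by group
      _ = (p * x * p⁻¹) * (p * z * p⁻¹) := by rw [c.eq]; group
      _ = _ := by rw [e]

theorem cj_zmul {p : G} (h : Commute p z) (x : G) : z * (p * x * p⁻¹) = p * (z * x) * p⁻¹ := by
  conv_lhs => rw [← cj_fix h]
  group

theorem cj_mulz {p : G} (h : Commute p z) (x : G) : (p * x * p⁻¹) * z = p * (x * z) * p⁻¹ := by
  conv_lhs => rw [← cj_fix h]
  group

theorem ord4 {Γ : Type*} [Group Γ] {x : Γ} (h2 : x ^ 2 ≠ 1) (h4 : x ^ 4 = 1) : orderOf x = 4 := by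
  haveI : Fact (Nat.Prime 2) := ⟨Nat.prime_two⟩
  exact orderOf_eq_prime_pow (p := 2) (n := 1) (by simpa using h2) (by simpa using h4)

theorem odd3 {Γ : Type*} [Group Γ] {x : Γ} (h : x ^ 3 = 1) : Odd (orderOf x) :=
  Odd.of_dvd_nat (by decide : Odd 3) (orderOf_dvd_of_pow_eq_one h)

section
variable (f : Fs)
include f

theorem zz : z * z = 1 := f.inv 125
theorem xx : x0 * x0 = 1 := f.inv 0

theorem ord_cl {K : Subgroup G} {e : G} (h : e ∈ cl K) : orderOf e = 2 := by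
  obtain ⟨m, -, rfl⟩ := h
  haveI : Fact (Nat.Prime 2) := ⟨Nat.prime_two⟩
  refine orderOf_eq_prime ?_ fun h => f.ne1 125 (by decide) ?_
  · rw [conj_pow, pow_two, zz f]; group
  · exact conj_eq_one_iff.1 h

theorem zx3 : (z * x0) ^ 3 = 1 := by
  calc (z * x0) ^ 3 = (z * x0 * z) * x0 * z * x0 := by simp only [pow_succ, pow_zero, one_mul, mul_assoc]
    _ = x0 * z * (x0 * x0) * z * x0 := by rw [f.op.1]; simp only [mul_assoc]
    _ = x0 * (z * z) * x0 := by rw [xx f]; simp only [mul_assoc, one_mul]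
    _ = 1 := by rw [zz f, mul_one, xx f]

theorem x0_cl {K : Subgroup G} (hz : z ∈ K) (hx : x0 ∈ K) : x0 ∈ cl K :=
  ⟨z * x0, K.mul_mem hz hx, by rw [f.op.1]; group⟩

/-- the pairs `(z, d)` -/
theorem pairz {H N K : Subgroup G} {a b : G} (g : Gd H N) (c : Cp H N K a b) {d : G} (hd : d ∈ cl K) :
    Commute z d ∨ (z * d) ^ 3 = 1 ∨ (orderOf (z * d) = 4 ∧ (z * d) ^ 2 ∈ D ∧ (z * d) ^ 2 ∈ N ∧ (z * d) ^ 2 ≠ z) := by
  obtain ⟨p, hp, r, hr, e⟩ := f.pair d (cl_D hd)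
  rcases f.dgs r hr with rfl | h | h | h | rfl
  · exact Or.inl (e ▸ (cj_comm hp).2 (Commute.refl _))
  · exact Or.inl (e ▸ (cj_comm hp).2 (f.Qz _ ((f.inQ r hr).2 h.ge)).symm)
  · left
    rw [e]
    exact (cj_comm hp).2 (f.r0 r hr h).1
  · obtain ⟨s, hs, hh⟩ := f.rm r hr h
    have ds := hh.1
    have e2 := hh.2.1
    have e3 : (z * d) ^ 2 = p * X s * p⁻¹ := by
      rw [e, cj_zmul hp]
      exact conj_pow.trans (congrArg (fun y => p * y * p⁻¹) e2)
    refine Or.inr (Or.inr ⟨ord4 ?_ ?_, by rw [e3]; exact D_cj (f.XD s hs) p, ?_, fun h1 => (f.r1 s hs ds).1 ?_⟩)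
    · rw [e3]; exact fun h1 => f.ne1 s hs (conj_eq_one_iff.1 h1)
    · rw [show 4 = 2 * 2 from rfl, pow_mul, e3, conj_pow, pow_two, f.inv]; group
    · rw [← g.inf]
      exact ⟨c.le (K.pow_mem (K.mul_mem c.zK (cl_mem c.zK hd)) 2), by
        rw [e3]; exact f.nQ p hp _ ((f.inQ s hs).2 ds.ge)⟩
    · rw [e3] at h1
      have := cj_fix hp
      exact mul_left_cancel (mul_right_cancel (h1.trans this.symm))
  · refine Or.inr (Or.inl ?_)
    rw [e, cj_zmul hp, conj_pow]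
    exact conj_eq_one_iff.2 (zx3 f)

/-- arbitrary pairs -/
theorem pairs {H N K : Subgroup G} {a b : G} (g : Gd H N) (c : Cp H N K a b) {d e : G} (hd : d ∈ cl K) (he : e ∈ cl K) :
    Commute d e ∨ (d * e) ^ 3 = 1 ∨ (orderOf (d * e) = 4 ∧ (d * e) ^ 2 ∈ cl K ∧ ∃ y ∈ D, y ∈ N ∧ y ≠ z) := by
  obtain ⟨m, hm, rfl⟩ := hd
  have he' : m⁻¹ * e * m⁻¹⁻¹ ∈ cl K := cl_cj he (K.inv_mem hm)
  have e1 : m * z * m⁻¹ * e = m * (z * (m⁻¹ * e * m⁻¹⁻¹)) * m⁻¹ := by group
  rcases pairz f g c he' with h | h | ⟨h1, h2, h3, h4⟩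
  · left
    show _ * _ = _ * _
    rw [e1, h.eq]; group
  · right; left
    rw [e1, conj_pow, h]; group
  · right; right
    refine ⟨?_, ?_, _, h2, h3, h4⟩
    · rw [e1, ← h1]
      exact (MulAut.conj m).orderOf_eq _
    · rw [e1, conj_pow]
      exact cl_cj (c.col _ h2 h3) hm

end

/-- the class inside `K` -/
def E (K : Subgroup G) : Set K := {e | e.1 ∈ cl K}

theorem E_gen {K : Subgroup G} (hz : z ∈ K) (h : K = closure (cl K)) : closure (E K) = ⊤ := by
  apply map_injective K.subtype_injective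
  rw [MonoidHom.map_closure, ← MonoidHom.range_eq_map, range_subtype]
  have : K.subtype '' E K = cl K := by
    ext x
    exact ⟨fun ⟨y, hy, e⟩ => e ▸ hy, fun hx => ⟨⟨x, cl_mem hz hx⟩, hx, rfl⟩⟩
  rw [this, ← h]

theorem l2 (f : Fs) : L2 := by
  intro H N K a b g c ⟨e, eD, eN, ez⟩
  have hNQ : ∀ n ∈ N, n ∈ Q := fun n hn => by rw [← g.inf] at hn; exact hn.2
  have hR : Cfsg.IsRootInvolutionSet (E K) := by
    refine ⟨fun d hd => by rw [← orderOf_coe]; exact ord_cl f hd, E_gen c.zK c.gen, fun d hd k => cl_cj hd k.2,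
      fun d hd e he => ?_⟩
    rcases pairs f g c hd he with h | h | ⟨h1, h2, -⟩
    · exact Or.inl (Subtype.ext h.eq)
    · exact Or.inr (Or.inl (by rw [← orderOf_coe]; exact odd3 h))
    · exact Or.inr (Or.inr ⟨by rw [← orderOf_coe]; exact h1, h2⟩)
  let zK : K := ⟨z, c.zK⟩
  let xK : K := ⟨x0, c.x0K⟩
  have hz : zK ∈ E K := z_cl K
  have hx : xK ∈ E K := x0_cl f c.zK c.x0K
  have hzx : xK ≠ zK := fun h => f.op.2 (by rw [show x0 = z from congrArg Subtype.val h])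
  have hodd : Odd (orderOf (zK * xK)) := by rw [← orderOf_coe]; exact odd3 (zx3 f)
  have hND : Cfsg.IsNondegenerateRootInvolutionSet (E K) := by
    refine ⟨hR, ⟨zK, hz, ⟨e, cl_mem c.zK (c.col e eD eN)⟩, c.col e eD eN,
      fun h => ez (congrArg Subtype.val h).symm, Subtype.ext (f.Qz e (hNQ e eN)).symm.eq⟩,
      ⟨zK, hz, xK, hx, hzx.symm, hodd⟩, ?_⟩
    obtain ⟨p, hp, r, hr, ee⟩ := f.pair e eD
    have hXQ : X r ∈ Q := by
      have := f.nQ p⁻¹ hp.inv_left e (hNQ e eN)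
      rwa [ee, show p⁻¹ * (p * X r * p⁻¹) * p⁻¹⁻¹ = X r by group] at this
    have h1 := (f.inQ r hr).1 hXQ
    have hr1 : dg r = 1 := by
      rcases f.dgs r hr with rfl | h | h | h | rfl
      · exact absurd (ee.trans (cj_fix hp)) ez
      · exact h
      · omega
      · omega
      · exact absurd hXQ fun h => f.ne1 0 (by decide) (f.semi _ h (Commute.refl _))
    obtain ⟨q, hq, l, hl, rfl⟩ := f.dec p hp
    obtain ⟨lz, lx⟩ := f.L0z l hl
    have hQ' : l * X r * l⁻¹ ∈ Q := f.nQ l lz _ hXQ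
    have hN' : l * X r * l⁻¹ ∈ N := by
      have e2 : e = q * (l * X r * l⁻¹) * q⁻¹ := by rw [ee]; group
      rcases f.cQ q hq _ hQ' with h | h
      · rw [← h, ← e2]; exact eN
      · have : l * X r * l⁻¹ = e * z := by rw [e2, h, mul_assoc _ z z, zz f, mul_one]
        rw [this]; exact N.mul_mem eN g.zN
    have hcl := c.col _ (D_cj (f.XD r hr) l) hN'
    refine ⟨xK, hx, ⟨_, cl_mem c.zK hcl⟩, hcl, ?_⟩
    rw [← orderOf_coe]
    obtain ⟨-, h4, h2, -⟩ := f.r1 r hr hr1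
    have e3 : x0 * (l * X r * l⁻¹) = l * (x0 * X r) * l⁻¹ := by
      rw [← mul_assoc, ← mul_assoc, ← lx.eq]; group
    show orderOf (x0 * (l * X r * l⁻¹)) = 4
    rw [e3, ← ord4 (x := x0 * X r) (fun h => f.ne1 r hr ?_) h4]
    · exact (MulAut.conj l).orderOf_eq _
    · rw [h, one_mul, inv_one, mul_one] at h2
      exact (mul_eq_right.1 h2.symm)
  have hC : Cfsg.IsRootInvolutionClass (E K) := by
    refine ⟨hR, ⟨zK, hz⟩, fun d ⟨m, hm, e1⟩ e ⟨n, hn, e2⟩ => ⟨⟨n * m⁻¹, K.mul_mem hn (K.inv_mem hm)⟩, Subtype.ext ?_⟩⟩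
    show e.1 = n * m⁻¹ * d.1 * (n * m⁻¹)⁻¹
    rw [e1, e2]; group
  have key := (Cfsg.Agent.S5054.result hND hC).1 zK hz xK ⟨hx, hzx, hodd⟩
  intro k hk
  have hk' : (⟨k, hk⟩ : K) ∈ closure (Cfsg.productPartners (E K) zK ∪ {xK}) := key ▸ mem_top _
  have := mem_map_of_mem K.subtype hk'
  rw [MonoidHom.map_closure] at this
  refine closure_mono ?_ this
  rintro _ ⟨d, hd | rfl, rfl⟩
  · left
    obtain ⟨⟨d1, d2, d3⟩, d4⟩ := hd
    have d2' : Commute z d.1 := (congrArg Subtype.val d2).symm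
    have d4' : d.1 * z ∈ D := cl_D d4
    obtain ⟨p, hp, r, hr, ee⟩ := f.pair d.1 (cl_D d1)
    rw [ee, cj_comm hp] at d2'
    show d.1 ∈ N
    rcases f.dgs r hr with rfl | h | h | h | rfl
    · have e0 : d.1 = z := ee.trans (cj_fix hp)
      exact absurd (Subtype.ext e0) d3
    · rw [← g.inf]
      exact ⟨c.le d.2, ee ▸ f.nQ p hp _ ((f.inQ r hr).2 h.ge)⟩
    · refine absurd ?_ (f.r0 r hr h).2
      have := D_cj d4' p⁻¹
      rwa [ee, cj_mulz hp, show p⁻¹ * (p * (X r * z) * p⁻¹) * p⁻¹⁻¹ = X r * z by group] at this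
    · obtain ⟨s, hs, hh⟩ := f.rm r hr h
      have e2 := hh.2.1
      refine absurd ?_ (f.ne1 s hs)
      rw [← e2, d2'.mul_pow, pow_two, pow_two, zz f, f.inv, one_mul]
    · exact absurd d2' f.op.2
  · right; rfl

theorem l3 (f : Fs) (fi : FI) (lp : LP) : L3 := by
  intro H N K a b g c ha hb
  by_contra hn
  have hp : ∀ p : ℕ, p.Prime → Cfsg.pCore p K = ⊥ := fun p hp => by
    have := lp a b p _ ha hb hp (H1.pCoreOf_isPGroup K) (H1.normalizer_le_normalizer_pCoreOf K c.na)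
      (H1.normalizer_le_normalizer_pCoreOf K c.nb)
    exact (map_eq_bot_iff_of_injective _ K.subtype_injective).1 this
  refine fi K (E K) ⟨⟨fun d hd => by rw [← orderOf_coe]; exact ord_cl f hd, fun d hd e he => ?_⟩,
    ⟨⟨z, c.zK⟩, z_cl K, ?_⟩, E_gen c.zK c.gen⟩ ?_ (hp 2 Nat.prime_two) (hp 3 Nat.prime_three) ⟨c.d43, c.d127, ?_⟩
  · rcases pairs f g c hd he with h | h | ⟨-, -, h⟩
    · refine Or.inl (Subtype.ext ?_)
      show (d.1 * e.1) ^ 2 = 1
      rw [h.mul_pow, ← ord_cl f hd, pow_orderOf_eq_one, ord_cl f hd, ← ord_cl f he, pow_orderOf_eq_one, one_mul]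
    · exact Or.inr (Subtype.ext h)
    · exact absurd h hn
  · ext d
    constructor
    · rintro ⟨m, hm, e⟩
      exact isConj_iff.2 ⟨⟨m, hm⟩, Subtype.ext e.symm⟩
    · intro h
      obtain ⟨m, e⟩ := isConj_iff.1 h
      exact ⟨m.1, m.2, (congrArg Subtype.val e).symm⟩
  · by_contra hc
    have h1 : Nat.card (center K) ≠ 1 := fun h => hc (card_eq_one.1 h)
    haveI : Fact (Nat.card (center K)).minFac.Prime := ⟨Nat.minFac_prime h1⟩
    obtain ⟨x, hx⟩ := exists_prime_orderOf_dvd_card' _ (Nat.minFac_dvd (Nat.card (center K)))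
    have hx' : orderOf x.1 = (Nat.card (center K)).minFac := by rw [orderOf_coe, hx]
    have hle : zpowers x.1 ≤ center K := zpowers_le.2 x.2
    have hN : (zpowers x.1).Normal := ⟨fun n hn k => by
      rw [mem_center_iff.1 (hle hn) k, mul_inv_cancel_right]; exact hn⟩
    have := H1.le_pCore hN (IsPGroup.of_card (p := (Nat.card (center K)).minFac) (n := 1)
      (by rw [Nat.card_zpowers, hx', pow_one]))
    rw [hp _ Fact.out, le_bot_iff, zpowers_eq_bot] at this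
    rw [this, orderOf_one] at hx'
    exact (Nat.minFac_prime h1).one_lt.ne hx'
  · have := card_subgroup_dvd_card K
    rwa [H18.E7.cardG] at this

end H15.ME
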