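import Cfsg.Agent.H9.RL0

/-! S3860, chunk `GI`: the coloured geometry of the class of `s` modulo the centre. -/

set_option autoImplicit false
set_option linter.unusedVariables false
set_option linter.unusedSectionVars false

namespace H15.RL
open Cfsg Subgroup H19 H17.GS H9.RL
open scoped commutatorElement

universe u
variable {G : Type u} [Group G] [Finite G] {a b : ℕ} {f g r s t u v w x y z : G}

local notation "π" => QuotientGroup.mk' (center G)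

theorem zc (hz : z ∈ center G) (g : G) : g * z * g⁻¹ = z := by rw [mem_center_iff.1 hz g]; simp

theorem pi_eq : π x = π y ↔ x⁻¹ * y ∈ center G := QuotientGroup.eq

theorem pi_one : π x = 1 ↔ x ∈ center G := QuotientGroup.eq_one_iff x

theorem cm_iff : Commute (π x) (π y) ↔ ⁅x, y⁆ ∈ center G := by
  rw [← commutatorElement_eq_one_iff_commute, ← map_commutatorElement, pi_one]

theorem cc_mk (x y : G) : cc (π x) (π y) = ⁅x, y⁆ := by
  obtain ⟨⟨p, hp⟩, e⟩ := QuotientGroup.mk_out_eq_mul (center G) x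
  obtain ⟨⟨q, hq⟩, e'⟩ := QuotientGroup.mk_out_eq_mul (center G) y
  show ⁅(x : G ⧸ center G).out, (y : G ⧸ center G).out⁆ = _
  rw [e, e', commutatorElement_def, commutatorElement_def]
  calc _ = x * (p * (y * q) * p⁻¹) * (x⁻¹ * q⁻¹ * x⁻¹⁻¹) * x⁻¹ * y⁻¹ := by group
    _ = _ := by rw [← mem_center_iff.1 hp, zc (inv_mem hq)]; group

theorem zpi (h : St G a b) (hz : z ∈ center G) : PiE {2} z := by
  have m := constt_mem {2}ᶜ hz
  have : constt {2}ᶜ z = 1 := mem_bot.1 (h.oo ▸ le_Oc ⟨le_top, fun g _ => mem_norm_of_cj_le (by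
    rw [cj_zpowers, zc m])⟩ (piG_zpowers.2 (constt_pi _ z)) (mem_zpowers _))
  simpa using constt_eq_one_iff.1 this

theorem pi2 (h : St G a b) (hz : v * v ∈ center G) : PiE {2} v := fun p hp hd => by
  by_contra n
  have := zpi h hz p hp
  rw [← pow_two, orderOf_pow] at this
  exact n (this ((Nat.Coprime.dvd_mul_right ((Nat.coprime_primes hp Nat.prime_two).2 n |>.coprime_dvd_right
    (Nat.gcd_dvd_right _ 2))).1 (by rwa [Nat.div_mul_cancel (Nat.gcd_dvd_left _ _)])))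

theorem tinv (e : r * r = t * t) : r * (r⁻¹ * t) * r⁻¹ = (r⁻¹ * t)⁻¹ := by
  rw [show r * (r⁻¹ * t) * r⁻¹ = t⁻¹ * (t * t) * r⁻¹ by group, ← e]; group

theorem inv_zp (e : r * w * r⁻¹ = w⁻¹) (hx : x ∈ zpowers w) : r * x * r⁻¹ = x⁻¹ := by
  obtain ⟨n, rfl⟩ := hx
  simp only
  rw [← conj_zpow, e, inv_zpow]

theorem sq1 (hf : f * f ∈ center G) (k : ⁅x, f⁆ ∈ center G) : ⁅x, f⁆ * ⁅x, f⁆ = 1 := by
  have e : x * f * x⁻¹ = ⁅x, f⁆ * f := by rw [commutatorElement_def]; group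
  have := zc hf x
  rw [← conj_mul, e, mul_assoc, ← mul_assoc f, mem_center_iff.1 k f, mul_assoc, ← mul_assoc] at this
  exact mul_eq_right.1 this

theorem usq (e : s * s = g * g) (k : ⁅s, g⁆ ∈ center G) : s⁻¹ * g * (s⁻¹ * g) = ⁅s, g⁆ := by
  rw [← zc k (s⁻¹ * s⁻¹), show s⁻¹ * s⁻¹ * ⁅s, g⁆ * (s⁻¹ * s⁻¹)⁻¹ = s⁻¹ * g * s⁻¹ * g⁻¹ * (s * s) by
    simp [commutatorElement_def, mul_assoc], e]
  group

theorem odd_iff_pi {n : ℕ} : Odd n ↔ PiN {2}ᶜ n := by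
  rw [piN_compl_singleton Nat.prime_two, ← Nat.not_even_iff_odd, even_iff_two_dvd]

section
variable (r1 : R1.{u}) (f4 : F4.{u}) (h : St G a b) (a2 : 2 ≤ a)
include r1 f4 h a2

theorem g2 (e : r * r = t * t) : r⁻¹ * t * (r⁻¹ * t) ∈ center G ∨ ∃ x z, Ox x r ∧ z ∈ center G ∧ r⁻¹ * t = z * x := by
  have i := tinv e
  by_cases k : constt {2}ᶜ (r⁻¹ * t) = 1
  · exact .inl (r1 h a2 ⟨r, i⟩ (by simpa using constt_eq_one_iff.1 k))
  have o : Ox (constt {2}ᶜ (r⁻¹ * t)) r := ⟨k, odd_iff_pi.2 (constt_pi _ _), inv_zp i (constt_mem_zpowers _ _)⟩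
  exact .inr ⟨_, _, o, f4 h a2 o (constt_pi _ _) (mem_cent1.2 (constt_commute _ _ _))
    (inv_zp i (constt_mem_zpowers _ _)), (constt_mul_compl _ _).symm⟩

omit r1 f4 h a2 in
theorem cm_of (z1 : r * r ∈ center G) (z2 : t * t ∈ center G) (k : r⁻¹ * t * (r⁻¹ * t) ∈ center G) :
    Commute (π r) (π t) := by
  rw [← pi_one, map_mul] at z1 z2
  rw [← pi_one, map_mul, map_mul, map_inv, inv_eq_of_mul_eq_one_right z1] at k
  have := eq_inv_of_mul_eq_one_left k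
  rwa [mul_inv_rev, inv_eq_of_mul_eq_one_right z1, inv_eq_of_mul_eq_one_right z2] at this

theorem g3 (e : r * r = t * t) (z1 : r * r ∈ center G) (n : ¬ Commute (π r) (π t)) :
    ∃ x, Ox x r ∧ Odd (orderOf ((π r)⁻¹ * π t)) ∧
      ∀ y, Commute (π r) (π y) → Commute (π t) (π y) → y ∈ C[x] ∧ ⁅r, y⁆ = ⁅t, y⁆ := by
  obtain ⟨x, z, o, p, q⟩ := (g2 r1 f4 h a2 e).resolve_left (mt (cm_of z1 (e ▸ z1)) n)
  refine ⟨x, o, ?_, fun y c d => ?_⟩
  · rw [← map_inv, ← map_mul, q, map_mul, pi_one.2 p, one_mul]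
    exact o.odd.of_dvd_nat (orderOf_map_dvd _ x)
  rw [cm_iff] at c d
  have m := mul_mem c (inv_mem d)
  have e1 : y * x * y⁻¹ = ⁅r, y⁆ * ⁅t, y⁆⁻¹ * x := by
    refine mul_left_cancel (a := z) ?_
    calc _ = y * z * y⁻¹ * (y * x * y⁻¹) := by rw [zc p]
      _ = r⁻¹ * (⁅r, y⁆ * ⁅t, y⁆⁻¹) * r⁻¹⁻¹ * (r⁻¹ * t) := by
        rw [conj_mul, ← q]; simp only [commutatorElement_def]; group
      _ = _ := by rw [zc m, q, ← mul_assoc, ← mem_center_iff.1 m z, mul_assoc]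
  have e2 := constt_eq (zpi h m) (odd_iff_pi.1 o.odd) (mem_center_iff.1 m x).symm
  rw [← e1, constt_of_pi' ((odd_iff_pi.1 o.odd).e_conj y)] at e2
  rw [← e2, one_mul] at e1
  exact ⟨mem_cent1.2 (mul_inv_eq_iff_eq_mul.1 e1), mul_inv_eq_one.1 e2.symm⟩

theorem i3 (e1 : s * s = g * g) (e2 : s * s = t * t) (z1 : s * s ∈ center G) (n : π s ≠ π g)
    (c : Commute (π s) (π g)) (d : Commute (π t) ((π s)⁻¹ * π g)) : Commute (π s) (π t) := by_contra fun k => by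
  obtain ⟨x, o, -, p⟩ := g3 r1 f4 h a2 e2 z1 k
  exact n (pi_eq.2 (f4 h a2 o (pi2 h (usq e1 (cm_iff.1 c) ▸ cm_iff.1 c)) (p _ (by
    rw [map_mul, map_inv]; exact (Commute.refl _).inv_right.mul_right c) (by rwa [map_mul, map_inv])).1 (tinv e1)))

end

theorem gi (r2 : R2.{u}) (r1 : R1.{u}) (f4 : F4.{u}) : GI.{u} := fun {G} _ _ {a b s} h a2 rs => by
  have key {y} (p : y ∈ Kh s) : ∃ r, QuotientGroup.mk' (center G) r = y ∧ r * r = s * s :=
    let ⟨g, e⟩ := p; ⟨_, e.symm, by rw [conj_mul, zc rs.sq]⟩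
  have sur := QuotientGroup.mk'_surjective (center G)
  have iv {r} (e : r * r = s * s) : (QuotientGroup.mk' (center G) r)⁻¹ = QuotientGroup.mk' (center G) r :=
    inv_eq_of_mul_eq_one_right (by rw [← map_mul, pi_one, e]; exact rs.sq)
  refine ⟨fun y p => ?_, fun y p g => ?_, fun y p x q => ?_, ?_, fun y p x q c g => ?_, fun y p x q c => ?_,
    fun f p x y c d => ?_, fun f p x c => ?_, fun y p x q => ?_, fun y p x q n f r c d => ?_,
    fun y p x q n f r g t ne c d1 d2 d3 d4 k => ?_, fun y p g q ne c t r d => ?_,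
    fun y p g q f r t m ne c d1 d2 d3 n k => ?_⟩
  · obtain ⟨r, rfl, e⟩ := key p
    rw [← map_mul, pi_one, e]; exact rs.sq
  · obtain ⟨k, rfl⟩ := p
    obtain ⟨g, rfl⟩ := sur g
    exact ⟨g * k, by rw [← conj_conj']; rfl⟩
  · obtain ⟨k, rfl⟩ := p
    obtain ⟨l, rfl⟩ := q
    exact ⟨(l * k⁻¹ : G), by rw [← QuotientGroup.mk_inv, ← QuotientGroup.mk_mul, ← QuotientGroup.mk_mul]; congr 1; group⟩
  · obtain ⟨P, hP⟩ := exists_syl 2 C[s]
    obtain ⟨S, hS, l⟩ := hP.pi.exists_syl (le_top (a := P))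
    have e : S ⊓ C[s] = P := hP.max (le_inf l hP.le) inf_le_right (hS.pi.of_le inf_le_left)
    let φ : G →* ConjAct (G ⧸ center G) := ConjAct.toConjAct.toMonoidHom.comp (QuotientGroup.mk' _)
    have o : Kh s = MulAction.orbit (ConjAct (G ⧸ center G)) (s : G ⧸ center G) := Set.ext fun y =>
      ⟨fun ⟨g, e⟩ => ⟨φ g, e.symm⟩, fun ⟨g, e⟩ => (sur (ConjAct.ofConjAct g)).elim fun k j =>
        ⟨k, by rw [← e]; show ConjAct.ofConjAct g * _ * (ConjAct.ofConjAct g)⁻¹ = _; rw [← j]; rfl⟩⟩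
    rw [o, ← MulAction.index_stabilizer, ← index_comap_of_surjective _ (f := φ)
      (ConjAct.toConjAct.surjective.comp sur), ← relIndex_top_right]
    exact Nat.not_even_iff_odd.1 (mt even_iff_two_dvd.1 (hS.not_dvd_relIndex Nat.prime_two fun g p =>
      mul_inv_eq_one.1 (pi_one.2 (r2 h rs hS (e ▸ hP) g p))))
  · obtain ⟨r, rfl, -⟩ := key p
    obtain ⟨t, rfl, -⟩ := key q
    obtain ⟨g, rfl⟩ := sur g
    rw [← map_inv, ← map_mul, ← map_mul, ← map_mul, ← map_mul, cc_mk, cc_mk, ← conjugate_commutatorElement,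
      zc (cm_iff.1 c)]
  · obtain ⟨r, rfl, -⟩ := key p
    obtain ⟨t, rfl, e⟩ := key q
    rw [cc_mk, cc_mk, ← commutatorElement_inv r t, inv_eq_of_mul_eq_one_right (sq1 (e ▸ rs.sq) (cm_iff.1 c))]
  · obtain ⟨r, rfl, -⟩ := key p
    obtain ⟨x, rfl⟩ := sur x
    obtain ⟨y, rfl⟩ := sur y
    rw [← map_mul, cc_mk, cc_mk, cc_mk, mem_center_iff.1 (cm_iff.1 d), ← zc (cm_iff.1 d) x]
    simp only [commutatorElement_def]; group
  · obtain ⟨r, rfl, e⟩ := key p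
    obtain ⟨x, rfl⟩ := sur x
    rw [cc_mk]; exact sq1 (e ▸ rs.sq) (cm_iff.1 c)
  · obtain ⟨r, rfl, e⟩ := key p
    obtain ⟨t, rfl, e'⟩ := key q
    refine or_iff_not_imp_left.2 fun n => ?_
    obtain ⟨x, -, o, -⟩ := g3 r1 f4 h a2 (e.trans e'.symm) (e ▸ rs.sq) n
    rwa [iv e] at o
  · obtain ⟨u, rfl, e⟩ := key p
    obtain ⟨t, rfl, e'⟩ := key q
    obtain ⟨f, rfl⟩ := sur f
    obtain ⟨x, -, -, o⟩ := g3 r1 f4 h a2 (e.trans e'.symm) (e ▸ rs.sq) n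
    rw [cc_mk, cc_mk, (o f c d).2]
  · obtain ⟨u, rfl, e⟩ := key p
    obtain ⟨w, rfl, e'⟩ := key q
    obtain ⟨f, rfl, e1⟩ := key r
    obtain ⟨g, rfl, e2⟩ := key t
    obtain ⟨x, o, -, j⟩ := g3 r1 f4 h a2 (e.trans e'.symm) (e ▸ rs.sq) n
    rw [cc_mk, cc_mk] at k
    have fx := (j f d1 d2).1
    refine ne (pi_eq.2 (f4 h a2 (t := u * f) ⟨o.ne, o.odd, by
      rw [← conj_conj', mul_inv_eq_iff_eq_mul.2 (mem_cent1.1 fx), o.inv]⟩
      (pi2 h (usq (e1.trans e2.symm) (cm_iff.1 c) ▸ cm_iff.1 c)) (mul_mem (inv_mem fx) (j g d3 d4).1) ?_))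
    rw [← conj_conj', tinv (e1.trans e2.symm), show u * (f⁻¹ * g)⁻¹ * u⁻¹ = g⁻¹ * ⁅u, g⁆⁻¹ * ⁅u, f⁆ * f by
      simp only [commutatorElement_def]; group, k]
    group
  · obtain ⟨u, rfl, e⟩ := key p
    obtain ⟨g, rfl, e'⟩ := key q
    obtain ⟨t, rfl, e1⟩ := key r
    exact (i3 r1 f4 h a2 (e.trans e'.symm) (e.trans e1.symm) (e ▸ rs.sq) ne c (by rwa [iv e])).symm
  · obtain ⟨u, rfl, e⟩ := key p
    obtain ⟨g, rfl, e'⟩ := key q
    obtain ⟨f, rfl, e1⟩ := key r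
    obtain ⟨t, rfl, e2⟩ := key m
    rw [cc_mk, cc_mk] at k
    have u1 := usq (e.trans e'.symm) (cm_iff.1 c)
    have u2 := usq (e2.trans e1.symm) (cm_iff.1 d3)
    obtain ⟨x, -, o, -⟩ := g3 r1 f4 h a2 (u1.trans (k.trans u2.symm)) (u1 ▸ cm_iff.1 c) fun j => n (i3 r1 f4 h a2
      (e.trans e'.symm) (e.trans e2.symm) (e ▸ rs.sq) ne c (by
        rw [map_mul, map_mul, map_inv, map_inv] at j
        simpa using (j.mul_right (d1.inv_left.mul_left d2).inv_right).inv_right.symm)).symm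
    rw [map_mul, map_mul, map_inv, map_inv, mul_inv_rev, inv_inv, iv e', iv e2, ← c.eq, ← mul_assoc] at o
    refine ⟨_, o, ?_⟩
    have := pow_orderOf_eq_one (QuotientGroup.mk' (center G) u * QuotientGroup.mk' (center G) g *
      QuotientGroup.mk' (center G) t * QuotientGroup.mk' (center G) f)
    obtain ⟨i, hi⟩ := o
    rw [((d1.mul_left d2).mul_left d3).mul_pow] at this
    rw [eq_inv_of_mul_eq_one_left this, hi, pow_succ, pow_mul, pow_two, mul_eq_one_iff_inv_eq.2 (iv e1), one_pow,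
      one_mul, iv e1]

end H15.RL
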