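import Cfsg.Agent.H0.RU2

/-! S2196: the chunks `TL` and `N2a`. -/

set_option autoImplicit false
set_option linter.unusedSectionVars false
set_option linter.unusedVariables false

open Module MulAction H13.R3 H12
open H11 (hermT frob)
open H11.RS (PO)
open H0.RU

namespace H15.RU

universe u

attribute [-simp] H11.frob_apply

theorem quad0 {K : Type*} [Field K] [Fintype K] {a b : K} (c : K) (ha : a ≠ 0) (hb : b ≠ 0) :
    ∃ x y : K, a * x ^ 2 + b * y ^ 2 + c = 0 := by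
  by_cases h : ringChar K = 2
  · obtain ⟨x, hx⟩ := FiniteField.isSquare_of_char_two h (-c / a)
    exact ⟨x, 0, by rw [sq, ← hx]; field_simp; ring⟩
  · obtain ⟨x, y, e⟩ := FiniteField.exists_root_sum_quadratic
      (f := Polynomial.C a * Polynomial.X ^ 2) (g := Polynomial.C b * Polynomial.X ^ 2 + Polynomial.C c)
      (by compute_degree!) (by compute_degree!) (FiniteField.odd_card_of_char_ne_two h)
    exact ⟨x, y, by simpa [add_assoc] using e⟩

variable {F : Type u} [Field F] [Fintype F] {q : ℕ} {hF : Fintype.card F = q ^ 2}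
  {V : Type u} [AddCommGroup V] [Module F V] [Fintype V] {C : CForm (hermT hF) V}
  {G : Type u} [Group G] [Fintype G] [DistribMulAction G V] [SMulCommClass G F V] {H : Subgroup G}

theorem quad {a b c : F} (ha : a ≠ 0) (hb : b ≠ 0) (ra : frob hF a = a) (rb : frob hF b = b)
    (rc : frob hF c = c) : ∃ x y : F, frob hF x = x ∧ frob hF y = y ∧ a * x ^ 2 + b * y ^ 2 + c = 0 := by
  classical
  obtain ⟨x, y, e⟩ := quad0 (K := (frob hF).eqLocusField (RingHom.id F)) (a := ⟨a, ra⟩) (b := ⟨b, rb⟩)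
    ⟨c, rc⟩ (fun e => ha (congrArg Subtype.val e)) (fun e => hb (congrArg Subtype.val e))
  exact ⟨x, y, x.2, y.2, congrArg Subtype.val e⟩

theorem tl0 (un : Un C G) {z : V} (iz : Is C z)
    (tr : ∀ y y', Fl C z y → Fl C z y' → Fq F H (z, y) (z, y')) (R : Set V)
    (ad : ∀ a ∈ R, ∀ b ∈ R, a + b ∈ R) (sm : ∀ t, frob hF t = t → ∀ a ∈ R, t • a ∈ R)
    (zz : ∀ c : F, c • z ∈ R) (pz : ∀ a ∈ R, C.B z a = 0) (re : ∀ a ∈ R, ∀ b ∈ R, C.B a b = C.B b a)
    (iv : ∀ h ∈ H, ∀ c : F, h • z = c • z → ∀ a ∈ R, frob hF c • h • a ∈ R) :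
    ∀ s ∈ R, s ∈ F ∙ z := by
  have n6 := un.n6
  have tr' : ∀ y y', Fl C z y → Fl C z y' → ∃ h ∈ H, ∃ c α β : F, c ≠ 0 ∧ β ≠ 0 ∧ h • z = c • z ∧
      h • y = α • z + β • y' := fun y y' f f' => by
    obtain ⟨h, hh, h1, h2⟩ := tr y y' f f'
    obtain ⟨c, hc⟩ := Submodule.mem_span_singleton.1 h1
    obtain ⟨α, β, e⟩ := mem_ln.1 h2
    refine ⟨h, hh, c, α, β, fun e0 => iz.1 (gsz.1 (by rw [← hc, e0, zero_smul])), fun e0 => ?_,
      hc.symm, e.symm⟩
    refine f.2.2.2 (smul_mem_sp_iff (g := h).1 ?_)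
    rw [sp_eq (fun e => iz.1 (gsz.1 e)) h1, ← e, e0, zero_smul, add_zero]
    exact Submodule.smul_mem _ _ (Submodule.mem_span_singleton_self _)
  by_cases hA : ∃ y ∈ R, Fl C z y
  · obtain ⟨y, hy, f⟩ := hA
    have all : ∀ y', Fl C z y' → ∃ l : F, l ≠ 0 ∧ l • y' ∈ R := fun y' f' => by
      obtain ⟨h, hh, c, α, β, c0, b0, e1, e2⟩ := tr' y y' f f'
      refine ⟨frob hF c * β, mul_ne_zero (fr_ne c0) b0, ?_⟩
      have := ad _ (iv h hh c e1 y hy) _ (zz (-(frob hF c * α)))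
      rw [e2] at this
      convert this using 1
      module
    have real : ∀ a ∈ R, ∀ b ∈ R, C.B a a = 0 → C.B b a = 0 → a ∉ ln F z b → ∀ l m : F,
        l • a + m • b ∈ R → frob hF l = l := fun a ha b hb e1 e2 n l m hl => by
      obtain ⟨t, h1, h2, h3⟩ := ex_par' un.nd n e1 (mem_pp_ln.2 ⟨pz a ha, e2⟩)
      obtain ⟨h4, h5⟩ := mem_pp_ln.1 h1
      obtain ⟨k, k0, hk⟩ := all t ⟨iz, h2.2, h4, fun e => by
        obtain ⟨c, rfl⟩ := Submodule.mem_span_singleton.1 e
        simp [pz a ha] at h3⟩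
      have e3 := re _ hk _ ha
      have e4 := re _ hk _ hl
      simp only [Bl, map_smul, smul_eq_mul, map_add, LinearMap.add_apply, h3, Bone h3, h5, Bsw h5,
        mul_one, mul_zero, add_zero] at e3 e4
      rw [e3] at e4
      exact mul_left_cancel₀ k0 (by linear_combination -e4)
    have := fr_pp_ln un.nd f.ind
    obtain ⟨w, h1, h2, h3⟩ := ex_is_off (C := C) (C.perp (ln F z y)) (ln F z y)
      (by rw [f.ind.finrank]; omega)
    obtain ⟨h4, h5⟩ := mem_pp_ln.1 h1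
    obtain ⟨l, l0, hl⟩ := all w ⟨iz, h3, h4, fun e => h2 (sp_le_ln e)⟩
    have n2 : l • w ∉ ln F z y := fun e => h2 ((Submodule.smul_mem_iff _ l0).1 e)
    have n1 : y ∉ ln F z (l • w) := fun e => n2 (by rw [ln_eq f.ind l_ln e]; exact r_ln)
    obtain ⟨ω, hω⟩ := ex_nf (hF := hF)
    have ω0 : ω ≠ 0 := fun e => hω (by simp [e])
    obtain ⟨m, m0, hm⟩ := all (y + ω • l • w) ⟨iz, by simp [f.2.1, h3, h5, Bsw h5],
      by simp [f.2.2.1, h4], fun e => n2 ((Submodule.smul_mem_iff _ ω0).1 (by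
        simpa using sub_mem (sp_le_ln e) (r_ln : y ∈ ln F z y)))⟩
    rw [smul_add, smul_smul] at hm
    have r1 := real y hy _ hl f.2.1 (by simp [Bsw h5]) n1 _ _ hm
    have r2 := real _ hl y hy (by simp [h3]) (by simp [h5]) n2 _ _ (add_comm (m • y) _ ▸ hm)
    rw [map_mul, r1] at r2
    exact absurd (mul_left_cancel₀ m0 r2) hω
  have kill : ∀ W : Submodule F V, finrank F W ≤ 3 → R ⊆ W → ∀ s ∈ R, s ∈ F ∙ z := fun W d hW s hs => by
    have := fr_pp un.nd W
    obtain ⟨y, h1, h2, h3⟩ := ex_is_off (C := C) (C.perp W) (F ∙ z)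
      (by rw [finrank_span_singleton iz.1]; omega)
    have h4 : ∀ a ∈ R, C.B a y = 0 := fun a ha => C.mem_perp.1 h1 a (hW ha)
    have f : Fl C z y := ⟨iz, h3, by simpa using h4 _ (zz 1), h2⟩
    have h5 : ∀ y', Fl C z y' → C.B s y' = 0 := fun y' f' => by
      obtain ⟨h, hh, c, α, β, c0, -, e1, e2⟩ := tr' y' y f' f
      have r := iv h hh c e1 s hs
      have e3 : C.B (frob hF c • h • s) (h • y') = 0 := by
        rw [e2, map_add, LinearMap.map_smul, LinearMap.map_smul, h4 _ r, Bsw (pz _ r)]; simp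
      rw [Bl, ff, un.iso] at e3
      exact (mul_eq_zero.1 e3).resolve_left c0
    obtain ⟨z', i', e'⟩ := ex_par un.nd iz
    have n' : C.B z z' ≠ 0 := Bone e' ▸ one_ne_zero
    have := fr_pp_ln un.nd (ind_of_ne iz.2 n')
    have h6 := perp_is un.nd (nd_pp_ln un.nd iz.2 i'.2 n') (by omega) (mem_pp_ln.2 (dec iz.2 i'.2 n' s))
      fun v hv i => by
        obtain ⟨h7, h8⟩ := mem_pp_ln.1 hv
        have := h5 v ⟨iz, i.2, h7, fun e => by
          obtain ⟨c, rfl⟩ := Submodule.mem_span_singleton.1 e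
          exact i.1 (by simpa [e'] using congrArg (· • z) h8)⟩
        simp [Bsw this, Bsw h7, Bsw h8]
    rw [pz s hs, zero_div, zero_smul, sub_zero, sub_eq_zero] at h6
    exact Submodule.mem_span_singleton.2 ⟨_, h6.symm⟩
  have nb : ∀ y ∈ R, C.B y y = 0 → y ∈ F ∙ z := fun y hy e => by
    by_contra n; exact hA ⟨y, hy, iz, e, pz y hy, n⟩
  have rl : ∀ a ∈ R, ∀ b ∈ R, frob hF (C.B a b) = C.B a b := fun a ha b hb => by rw [Bs, re a ha b hb]
  have prj : ∀ a ∈ R, ∀ s ∈ R, s + (-C.B a s / C.B a a) • a ∈ R := fun a ha s hs =>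
    ad _ hs _ (sm _ (by rw [map_div₀, map_neg, rl a ha s hs, rl a ha a ha]) _ ha)
  intro a ha
  by_contra na
  have ia : Ind F z a := ⟨iz.1, na⟩
  have Na : C.B a a ≠ 0 := fun e => na (nb a ha e)
  by_cases h1 : R ⊆ ln F z a
  · exact na (kill _ (by rw [ia.finrank]; omega) h1 a ha)
  obtain ⟨b0, hb0, nb0⟩ := Set.not_subset.1 h1
  obtain ⟨b, hb, n2, ab⟩ : ∃ b ∈ R, b ∉ ln F z a ∧ C.B a b = 0 :=
    ⟨_, prj a ha b0 hb0, fun e => nb0 ((Submodule.add_mem_iff_left _ (Submodule.smul_mem _ _ r_ln)).1 e),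
      by simp [Na]⟩
  have Nb : C.B b b ≠ 0 := fun e => n2 (sp_le_ln (nb b hb e))
  by_cases h2 : R ⊆ pl F z a b
  · exact na (kill _ (Ind3.finrank ⟨ia, n2⟩).le h2 a ha)
  obtain ⟨c0, hc0, nc0⟩ := Set.not_subset.1 h2
  obtain ⟨c, hc, n3, ac, bc⟩ : ∃ c ∈ R, c ∉ pl F z a b ∧ C.B a c = 0 ∧ C.B b c = 0 :=
    ⟨_, prj b hb _ (prj a ha c0 hc0), fun e => nc0 ((Submodule.add_mem_iff_left _ (Submodule.smul_mem _ _
      p2_pl)).1 ((Submodule.add_mem_iff_left _ (Submodule.smul_mem _ _ p3_pl)).1 e)),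
      by simp [Na, ab], by simp [Nb]⟩
  obtain ⟨x, y, rx, ry, e⟩ := quad Na Nb (rl a ha a ha) (rl b hb b hb) (rl c hc c hc)
  have := nb _ (ad _ (ad _ (sm x rx a ha) _ (sm y ry b hb)) _ hc) (by
    simp only [map_add, LinearMap.add_apply, Bl, map_smul, smul_eq_mul, ab, ac, bc, Bsw ab, Bsw ac,
      Bsw bc, rx, ry]
    linear_combination e)
  have m := sub_mem (ln_le_pl (z := b) (sp_le_ln (y := a) this))
    (add_mem (Submodule.smul_mem _ x p2_pl) (Submodule.smul_mem _ y p3_pl))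
  exact n3 (by simpa using m)

theorem tl : TL C H := fun un nt z iz tr s hs => by
  let K := (frob hF).eqLocusField (RingHom.id F)
  have ks : ∀ (t : K) (v : V), t • v = (t : F) • v := fun _ _ => rfl
  have kr : ∀ t : K, frob hF t = t := fun t => t.2
  refine tl0 un iz tr (Submodule.span K (Sx C H z)) (fun a ha b hb => add_mem ha hb)
    (fun t ht a ha => Submodule.smul_mem _ (⟨t, ht⟩ : K) ha)
    (fun c => Submodule.subset_span (sx_sp iz.2 (Submodule.mem_span_singleton.2 ⟨c, rfl⟩)))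
    (fun a ha => ?_) (fun a ha b hb => ?_) (fun h hh c e a ha => ?_) s (Submodule.subset_span hs)
  · induction ha using Submodule.span_induction with
    | mem s hs => exact hs.1
    | zero => simp
    | add a b _ _ ha hb => simp [ha, hb]
    | smul c a _ ha => simp [ks, ha]
  · induction ha using Submodule.span_induction with
    | mem s hs =>
      induction hb using Submodule.span_induction with
      | mem t ht => exact un.sx_sym nt iz hs ht
      | zero => simp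
      | add a b _ _ ha hb => simp [ha, hb]
      | smul c a _ ha => simp [ks, kr, ha]
    | zero => simp
    | add a b _ _ ha hb => simp [ha, hb]
    | smul c a _ ha => simp [ks, kr, ha]
  · induction ha using Submodule.span_induction with
    | mem s hs => exact Submodule.subset_span (sx_sml.1 (e ▸ un.sx_conj hh hs))
    | zero => simp
    | add a b _ _ ha hb => rw [smul_add, smul_add]; exact add_mem ha hb
    | smul t a _ ha => rw [ks, gsc, smul_comm, ← ks]; exact Submodule.smul_mem _ _ ha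

theorem n2a0 (un : Un C G) (nt : NoT C H) {z b : V} {u : ℕ} (tw : Tw C H z u) (uq : u < q ^ 2)
    (h2 : (2 : F) ≠ 0) {g : G} (hg : g ∈ H) (iv : Iv C g z b) : False := by
  have n6 := un.n6
  have iz := tw.iz
  have zb := iv.2.2.1
  have st : ∀ h ∈ H, h • z ∈ F ∙ z → ∀ y ∈ C.perp (ln F z b), h • y ∈ C.perp (ln F z b) :=
    fun h hh e y hy => by
    have i1 := un.iv_conj iv h
    have e1 : (F ∙ (h • z)) = F ∙ z := sp_eq (fun e => iz.1 (gsz.1 e)) e
    have m : z ∈ ln F (h • z) (h • b) := sp_le_ln (e1 ▸ Submodule.mem_span_singleton_self z)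
    obtain ⟨b', i2, -, e2⟩ := i1.at m iz
    rw [← un.iv_uniq h2 (tl un nt z iz tw.s1) hg (H.mul_mem (H.mul_mem hh hg) (H.inv_mem hh)) iv i2, e2,
      mem_pp_ln, un.iso, un.iso]
    exact mem_pp_ln.1 hy
  have cf : ∀ {α β : F} {y : V}, y ∈ C.perp (ln F z b) → α • z + β • y ∈ C.perp (ln F z b) → α = 0 :=
    fun hy e => by simpa [(mem_pp_ln.1 hy).2, C.B_swap_ne zb] using (mem_pp_ln.1 e).2
  have fl : ∀ y ∈ C.perp (ln F z b), Is C y → Fl C z y := fun y hy i =>
    ⟨iz, i.2, (mem_pp_ln.1 hy).1, fun e => by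
      obtain ⟨c, rfl⟩ := Submodule.mem_span_singleton.1 e
      have := cf (β := 0) hy (by simpa using hy)
      exact i.1 (by simp [this])⟩
  have eqv : ∀ y ∈ C.perp (ln F z b), ∀ y' ∈ C.perp (ln F z b), Is C y → Is C y' → PO F H y y' :=
    fun y hy y' hy' i i' => by
    obtain ⟨h, hh, e1, e2⟩ := tw.s1 y y' (fl y hy i) (fl y' hy' i')
    obtain ⟨α, β, e⟩ := mem_ln.1 e2
    have := cf hy' (e ▸ st h hh e1 y hy)
    exact ⟨h, hh, Submodule.mem_span_singleton.2 ⟨β, by simpa [this] using e⟩⟩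
  have d2 := fr_pp_ln un.nd (ind_of_ne iz.2 zb)
  obtain ⟨y, hy, iy⟩ := ex_is (C := C) (U := C.perp (ln F z b)) (by omega)
  have fy := fl y hy iy
  have ny : ¬ PO F H z y := fun p => by
    have i3 : Ind3 F z b y := ⟨ind_of_ne iz.2 zb, fun e => iy.1 (Submodule.disjoint_def.1
      (C.nondegOn_iff.1 (nd_ln iz.2 iv.2.1 zb)) y e hy)⟩
    have := fr_pp un.nd (pl F z b y)
    obtain ⟨w, h1, h3, h4⟩ := ex_is_off (C := C) (C.perp (pl F z b y)) (F ∙ y)
      (by rw [finrank_span_singleton iy.1]; have := i3.finrank; omega)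
    have hw : w ∈ C.perp (ln F z b) := mem_pp_ln.2 ⟨C.mem_perp.1 h1 _ p1_pl, C.mem_perp.1 h1 _ p2_pl⟩
    have f : Fl C y w := ⟨iy, h4, C.mem_perp.1 h1 _ p3_pl, h3⟩
    have := (un.tw_po tw p iy.1).cnt w f
    rw [Set.eq_univ_of_forall (s := {c : F | PO F H y (w + c • y)}) fun c =>
      eqv y hy _ (add_mem hw (Submodule.smul_mem _ _ hy)) iy (f.add c).isr, Set.ncard_univ,
      Nat.card_eq_fintype_card, hF] at this
    omega
  set A := {c : F | PO F H z (y + c • z)} with hA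
  have hh : ∀ c : F, ∃ h : G, c ∉ A → h ∈ H ∧ h • y ∈ F ∙ (y + c • z) ∧ h • z ∈ ln F z y := fun c => by
    by_cases hc : c ∈ A
    · exact ⟨1, fun n => absurd hc n⟩
    obtain ⟨h, hh, e1, e2⟩ := tw.s2 y 0 c fy (by simpa using ny) hc
    refine ⟨h, fun _ => ⟨hh, by simpa using e1, ln_le.2 ⟨add_mem r_ln (Submodule.smul_mem _ _ l_ln), l_ln⟩ e2⟩⟩
  choose k hk using hh
  have le := Set.ncard_le_ncard_of_injOn (s := Aᶜ)
    (t := insert (F ∙ z) ((fun a : F => F ∙ (y + a • z)) '' A)) (fun c => F ∙ (k c • z))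
    (fun c hc => by
      obtain ⟨h1, -, h3⟩ := hk c hc
      obtain ⟨α, β, e⟩ := mem_ln.1 h3
      have n0 : k c • z ≠ 0 := fun e => iz.1 (gsz.1 e)
      by_cases b0 : β = 0
      · exact Or.inl (sp_eq n0 (Submodule.mem_span_singleton.2 ⟨α, by simpa [b0] using e⟩))
      · have m : k c • z ∈ F ∙ (y + (α / β) • z) := Submodule.mem_span_singleton.2 ⟨β, by
          rw [← e, smul_add, smul_smul, mul_div_cancel₀ _ b0, add_comm]⟩
        exact Or.inr ⟨α / β, ⟨k c, h1, m⟩, (sp_eq n0 m).symm⟩)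
    (fun c hc c' hc' e => by
      obtain ⟨h1, h3, h4⟩ := hk c hc
      obtain ⟨h5, h6, h7⟩ := hk c' hc'
      have m : ∀ c : F, (F ∙ (y + c • z)) ≤ ln F z y := fun c =>
        (Submodule.span_singleton_le_iff_mem _ _).2 (add_mem r_ln (Submodule.smul_mem _ _ l_ln))
      have e1 : ((k c)⁻¹ * k c') • z ∈ F ∙ z := by
        rw [← smul_mem_sp_iff (g := k c), mul_smul, smul_inv_smul, show (F ∙ (k c • z)) = _ from e]
        exact Submodule.mem_span_singleton_self _
      have e2 : ((k c)⁻¹ * k c') • y ∈ ln F z y := by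
        rw [← smul_mem_ln_iff (g := k c), mul_smul, smul_inv_smul, ln_eq (fy.ind.smul _) h4 (m c h3)]
        exact m c' h6
      obtain ⟨α, β, e3⟩ := mem_ln.1 e2
      have a0 := cf hy (e3 ▸ st _ (H.mul_mem (H.inv_mem h1) h5) e1 y hy)
      rw [a0, zero_smul, zero_add, mul_smul, eq_inv_smul_iff, gsc] at e3
      obtain ⟨s, hs⟩ := Submodule.mem_span_singleton.1 h3
      obtain ⟨t, ht⟩ := Submodule.mem_span_singleton.1 h6
      have t0 : t ≠ 0 := fun e => iy.1 (gsz.1 (by rw [← ht, e, zero_smul]))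
      rw [← hs, ← ht] at e3
      obtain ⟨e4, e5⟩ := ind_iff.1 fy.ind (β * s * c - t * c') (β * s - t)
        (by linear_combination (norm := module) e3)
      exact mul_left_cancel₀ t0 (by linear_combination e4 - c * e5)) (Set.toFinite _)
  have l1 := Set.ncard_insert_le (F ∙ z) ((fun a : F => F ∙ (y + a • z)) '' A)
  have l2 := Set.ncard_image_le (f := fun a : F => F ∙ (y + a • z)) (s := A)
  have l3 := Set.ncard_add_ncard_compl A
  have l4 := tw.cnt y fy
  rw [Nat.card_eq_fintype_card, hF] at l3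
  obtain ⟨m, hm⟩ := tw.dvd
  have : 2 ≤ m := by
    rcases m with _ | _ | m
    · omega
    · omega
    · omega
  have := Nat.mul_le_mul_left u this
  rw [← hA] at l4
  omega

theorem n2a : N2a C H := fun un nt z u tw uq h2 g hg a b iv po => by
  have ia : Is C a := ⟨fun e => iv.2.2.1 (by simp [e]), iv.1⟩
  exact n2a0 un nt (un.tw_po tw (po a l_ln ia) ia.1) uq h2 hg iv

end H15.RU
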