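/-
S3159, chunk FA: the short involution of the `F₄` case.
-/
import Cfsg.Agent.H26.SX0

set_option autoImplicit false
set_option synthInstance.maxSize 4096
set_option linter.unusedSectionVars false
open Cfsg Subgroup H19 H23.F4 H26.SX
open H11.TC (Ch2 nI nC)
namespace H15.SX
universe u
variable {G : Type u} [Group G] [Finite G] {b r g h k x t : G} {φ ψ : Sp →* G} {R X Y : Subgroup G} {m n l : M4} {u v : t4}

theorem ea_b : ea b φ (1, 0, 0, 0) = b := by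
  rw [ea, show dA (0, 0, 0) = 1 from dA_zero, map_one, mul_one]; exact pow_one b
theorem ea_0 {s : tA} {y : Sp} (e : dA s = y) : ea b φ (0, s) = φ y := by simp [ea, e]
theorem amul (a : Ac b φ g m) (c : Ac b φ h n) (e : ∀ v, ap4 m (ap4 n v) = ap4 l v) : Ac b φ (g * h) l := fun v => by
  rw [← e, ← a, ← c v]; group
theorem ainv (a : Ac b φ g m) (e : ∀ v, ap4 m (ap4 n v) = v) : Ac b φ g⁻¹ n := fun v => by
  rw [← e v, ← a, ← e v]; simp only [mul_assoc, inv_inv, inv_mul_cancel, inv_mul_cancel_left, mul_one, e]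
theorem acb (a : Ac b φ g m) : g * b * g⁻¹ = ea b φ m.1 := by
  have := a (1, 0, 0, 0)
  rwa [ea_b, show ap4 m (1, 0, 0, 0) = m.1 by simp [ap4]] at this
theorem acm (a : Ac b φ g m) (e : ap4 m v = v) : Commute g (ea b φ v) := mul_inv_eq_iff_eq_mul.1 ((a v).trans (by rw [e]))
theorem cjC (c : x ∈ C[g * h * g⁻¹]) : g⁻¹ * x * g ∈ C[h] := by
  rw [← cj_cent1] at c; exact mem_cj.1 c
/-- the reflection in `b` -/
def mR : M4 := ((2, 0, 0, 0), (0, 1, 0, 0), (0, 0, 1, 0), (0, 0, 0, 1))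
/-- the long vectors -/
def Lw (v : t4) : Prop := wt v = 1 ∨ wt v = 4
instance (v : t4) : Decidable (Lw v) := by unfold Lw; infer_instance

section
variable (a : Api.{u}) (W : Wc b φ R)
include a W
theorem e0 : ea b φ 0 = 1 := by simpa using a.add W 0 0
theorem eneg (v : t4) : ea b φ (-v) = (ea b φ v)⁻¹ := eq_inv_of_mul_eq_one_left (by rw [← a.add W, neg_add_cancel, e0 a W])
theorem ecm (u v : t4) : Commute (ea b φ u) (ea b φ v) := by rw [commute_iff_eq, ← a.add W, ← a.add W, add_comm]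
theorem e3' (v : t4) : ea b φ v ^ 3 = 1 := (a.cA W).2.2 _ ((a.mem W _).2 ⟨v, rfl⟩)
theorem e9 (p : PG 2 X) (u v : t4) (nu : ea b φ u ∈ N(X)) (nv : ea b φ v ∈ N(X)) (h1 : X ⊓ C[ea b φ u] ≤ Y)
    (h2 : X ⊓ C[ea b φ v] ≤ Y) (h3 : X ⊓ C[ea b φ (u + v)] ≤ Y) (h4 : X ⊓ C[ea b φ (u + v + v)] ≤ Y) : X ≤ Y :=
  H11.TC.e9 p (e3' a W u) (e3' a W v) (ecm a W u v) nu nv h1 h2 (a.add W u v ▸ h3) (a.add W u v ▸ a.add W _ v ▸ h4)
theorem cadd (h1 : x ∈ C[ea b φ u]) (h2 : x ∈ C[ea b φ v]) : x ∈ C[ea b φ (u + v)] :=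
  mem_cent1.2 (a.add W u v ▸ Commute.mul_right (mem_cent1.1 h1) (mem_cent1.1 h2))
theorem csp (h1 : x ∈ C[ea b φ u]) (h2 : x ∈ C[ea b φ v]) {w : t4} (e : w ∈ [u, v, u + v, u + u, v + v, u + v + v, u + u + v, u + v + (u + v)]) :
    x ∈ C[ea b φ w] := by
  have k := cadd a W h1 h2
  simp only [List.mem_cons, List.not_mem_nil, or_false] at e
  rcases e with rfl | rfl | rfl | rfl | rfl | rfl | rfl | rfl
  exacts [h1, h2, k, cadd a W h1 h1, cadd a W h2 h2, cadd a W k h2, cadd a W (cadd a W h1 h1) h2, cadd a W k k]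
theorem amg (i : ℕ) : Ac b φ (φ (mg i)) (mo4 [i]) := by simpa using a.amo W [i]
theorem aA (s : tA) : Ac b φ (φ (dA s)) id4 := fun v => by
  rw [(by decide +kernel : ∀ v, ap4 id4 v = v), ← ea_0 rfl, (ecm a W _ v).eq, mul_inv_cancel_right]
/-- `R` centralizes the `2`-elements commuting with a long element -/
theorem lgc (l : Lg b φ v) (c : x ∈ C[ea b φ v]) (p : PiE {2} x) (hk : k ∈ R) : x ∈ C[k] := by
  obtain ⟨m, ⟨g, A⟩, rfl⟩ := (a.fus W v).1 l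
  have W' := a.wlc W g
  rw [a.nR W A, acb A] at W'
  obtain ⟨y, rfl⟩ := a.m2 W' x (mem_cent1.1 c) p
  exact mem_cent1.2 (W'.RL k hk y).symm
end
theorem aR (a : Api.{u}) (F : Fc b r φ R) : Ac b φ r mR :=
  have c : ∀ {s y}, dA s = y → r * φ y * r⁻¹ = ea b φ (0, s) := fun e => by rw [ea_0 e, (F.rL _).eq, mul_inv_cancel_right]
  a.ac F.toWc (F.rb.trans (by
    rw [← ea_b (b := b) (φ := φ), ← eneg a F.toWc, ea_b]; rfl)) (c dA1) (c dA2) (c dA3)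

/-! ### the centralizer of `sw12` -/

def κ : Sp := wd [31, 60, 61, 22, 6]
theorem κsx : κ⁻¹ * sw12 * κ = sx := by decide +kernel
theorem mZW {y : Sp} : y ∈ ZW ↔ κ⁻¹ * y * κ ∈ ZL := by
  rw [← mem_cj]
  refine ⟨fun h => (closure_le _).2 (?_ : _ ⊆ (cj κ ZL : Set Sp)) h, fun h => ?_⟩
  · rintro _ (rfl | rfl | rfl) <;> exact mem_cj.2 (by change ∀ v, _; decide +kernel)
  obtain ⟨z, hz, rfl⟩ := mem_cj'.1 h
  obtain ⟨i, j, k, rfl⟩ := ZL_ex' hz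
  have q : ∀ i p, T p ∈ ZW → Tb i p ∈ ZW := fun i p h => by cases i; exacts [one_mem _, h]
  rw [← conj_mul, ← conj_mul, conj_Tb, conj_Tb, conj_Tb, show κ • e2 = e1 + e2 by decide +kernel,
    show κ • f3 = f1 + f2 by decide +kernel, show κ • (e2 + f3) = e1 + e2 + (f1 + f2) by decide +kernel]
  exact mul_mem (mul_mem (q _ _ (subset_closure (by simp))) (q _ _ (subset_closure (by simp)))) (q _ _ (subset_closure (by simp)))
theorem cκ {y z z' : Sp} (c : Commute y z) (e : κ⁻¹ * z * κ = z') : Commute (κ⁻¹ * y * κ) z' := by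
  simpa [← e] using c.map (MulAut.conj κ⁻¹).toMonoidHom
theorem On_τ {y : Sp} (h : y ∈ On) (c : Commute y τ) : y = 1 ∨ y = sx := by
  obtain ⟨q, q', h1, h2, h3⟩ := On_ex h
  obtain ⟨i, j, k, e⟩ := ZL_ex' h3
  exact (by decide +kernel : ∀ q, Pp [e2, f2, e3, f3] q → ∀ q', Pp [e2, f2, e3, f3] q' → ∀ i j k,
    ∀ y ∈ [X e2 q * X f3 q' * (Tb i e2 * Tb j f3 * Tb k (e2 + f3))], Commute y τ → y = 1 ∨ y = sx) q h1 q' h2 i j k y
    (List.mem_singleton.2 (inv_mul_eq_iff_eq_mul.1 e)) c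
theorem ZL_τ {y : Sp} {K : Subgroup Sp} (h : y ∈ ZL) (m : y ∈ K) (s : sx ∈ K) (n : τ ∈ N(K)) (e : y ≠ 1) (e' : y ≠ sx) : ZL ≤ K := by
  obtain ⟨i, j, k, rfl⟩ := ZL_ex' h
  intro z hz
  obtain ⟨i', j', k', rfl⟩ := ZL_ex' hz
  obtain ⟨s1, s2, s3, e⟩ := (by decide +kernel : ∀ i j k, ∀ y ∈ [Tb i e2 * Tb j f3 * Tb k (e2 + f3)], y ≠ 1 → y ≠ sx → ∀ i j k,
    ∃ s1 s2 s3, Tb i e2 * Tb j f3 * Tb k (e2 + f3) = rb y s1 * rb (τ * y * τ⁻¹) s2 * rb sx s3) i j k _ (by simp) e e' i' j' k'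
  have q : ∀ y ∈ K, ∀ s, rb y s ∈ K := fun y h s => by cases s; exacts [one_mem _, h]
  exact e ▸ mul_mem (mul_mem (q _ m _) (q _ (conj_mem_of_norm n m) _)) (q _ s _)
/-- the `2`-subgroups of `C(b, sw12)` normalized by `d3`, `ww` -/
theorem onC (a : Api.{u}) (W : Wc b φ R) (p : PG 2 X) (c1 : X ≤ C[b]) (c2 : X ≤ C[φ sw12]) (n1 : φ d3 ∈ N(X)) (n2 : φ ww ∈ N(X))
    (hx : x ∈ X) : ∃ y, x = φ y ∧ κ⁻¹ * y * κ ∈ On := by
  obtain ⟨y, rfl⟩ := a.m2 W x (mem_cent1.1 (c1 hx)) (p.elt hx)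
  have q : ∀ {s s' : Sp}, κ * s * κ⁻¹ = s' → φ s' ∈ N(X) → s ∈ N(cj κ⁻¹ (X.comap φ)) := fun e n => by
    rw [← cj_norm, mem_cj_inv, e]; exact norm_comap n
  exact ⟨y, rfl, le_On ((pi_comap W.inj (p.mono (by simp))).J κ⁻¹) (fun z hz => by
    simpa [mul_assoc] using cκ ((comm_map W.inj).1 (mem_cent1.1 (c2 (mem_cj_inv.1 hz)))) κsx) (q (by decide +kernel) n1)
    (q (by decide +kernel) n2) (mem_cj_inv.2 (by simpa [mul_assoc] using hx))⟩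
theorem cZW {y z : Sp} (h : κ⁻¹ * y * κ ∈ On) (hz : z ∈ ZW) : Commute y z := by
  simpa [mul_assoc] using (ZL_comm h (mZW.1 hz)).map (MulAut.conj κ).toMonoidHom
theorem κ1 {y z z' : Sp} (e : κ⁻¹ * y * κ = z') (e' : κ⁻¹ * z * κ = z') : y = z := by simpa using e.trans e'.symm
theorem swZ : sw12 ∈ ZW := mZW.2 (κsx ▸ by change ∀ v, _; decide +kernel)
theorem pg2 (tt : t * t = 1) : PG 2 (zpowers t) := abelem_pg Nat.prime_two (abelem_zpowers (by rw [pow_two, tt]))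
theorem tQ (tt : t * t = 1) : t ∈ Q1 t := zpowers_le.1 (le_Oc ⟨zpowers_le.2 (mem_cent1_self t), cent1_le_norm_zpowers t⟩ (pg2 tt))
theorem nQ (c : Commute g t) : g ∈ N(Q1 t) := (Oc_normal _ _).norm (mem_cent1.2 c)

theorem fa : FA.{u} := fun a G _ _ b r φ R ch F => by
  have W := F.toWc
  have tt : φ sw12 * φ sw12 = 1 := map_sq (by decide +kernel)
  have t1 : φ sw12 ≠ 1 := fun e => absurd (W.inj (e.trans (map_one φ).symm)) (by decide +kernel)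
  have At : Ac b φ (φ sw12) (mo4 [3]) := amg a W 3
  have pQ : PG 2 (Q1 (φ sw12)) := Oc_pi _ _
  have nE : ∀ v, ap4 (mo4 [3]) v = v → ea b φ v ∈ N(Q1 (φ sw12)) := fun v e => nQ (acm At e).symm
  have nE' : ∀ u v, ap4 (mo4 [3]) v = v → ea b φ v ∈ N(Q1 (φ sw12) ⊓ C[ea b φ u]) := fun u v e => nI (nE v e) (nC (ecm a W v u))
  obtain ⟨g, Ag, cg⟩ : ∃ g, Ac b φ g nF ∧ Commute g (φ sw12) := by
    obtain ⟨g, A⟩ := F.nf
    have A' := amul (amul (ainv A (n := nF) (by decide +kernel)) At (l := cmp4 nF (mo4 [3])) (by decide +kernel)) A (l := mo4 [3])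
      (by decide +kernel)
    have q : g⁻¹ * φ sw12 * g * (g⁻¹ * φ sw12 * g) = 1 := by simpa [mul_assoc] using congrArg (fun x => g⁻¹ * x * g) tt
    obtain ⟨y, e⟩ := a.m2 W _ (ea_b (b := b) (φ := φ) ▸ acm A' (by decide)) ((pg2 q).elt (mem_zpowers _))
    have c : ∀ {s d}, dA s = d → y * d * y⁻¹ = sw12 * d * sw12⁻¹ := fun {s d} k => W.inj (by
      rw [map_mul, map_mul, map_mul, map_mul, map_inv, map_inv, ← e, ← ea_0 (b := b) k, A', At])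
    obtain ⟨s, rfl, k⟩ := refl_gen centA (W.inj (by rw [map_mul, ← e, q, map_one])) (by decide +kernel) (c dA1) (c dA2) (c dA3)
    obtain ⟨s', k'⟩ := (by decide +kernel : ∀ s, sw12 * dA s * (sw12 * dA s) = 1 → ∃ s', dA s' * sw12 = sw12 * dA s * dA s') s k
    refine ⟨g * φ (dA s'), amul A (aA a W s') (by decide +kernel), ?_⟩
    rw [commute_iff_eq, mul_assoc, ← map_mul, k', map_mul φ _ (dA s'), ← e]; group
  have R0 : R = ⊥ := eq_bot_iff.2 fun k hk => by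
    have L : ∀ u v w, Lw w → w = v ∨ w = u + v → Q1 (φ sw12) ⊓ C[ea b φ u] ⊓ C[ea b φ v] ≤ C[k] := fun u v w l e x hx =>
      lgc a W ((F.lg w).2 l) (e.elim (· ▸ hx.2) (· ▸ cadd a W hx.1.2 hx.2)) (pQ.elt hx.1.1) hk
    have L' : ∀ w, Lw w → Q1 (φ sw12) ⊓ C[ea b φ w] ≤ C[k] := fun w l x hx => lgc a W ((F.lg w).2 l) hx.2 (pQ.elt hx.1) hk
    have L2 : ∀ i : Fin 3, i ≠ 0 → Q1 (φ sw12) ⊓ C[ea b φ (1, 0, 0, i)] ≤ C[k] := fun i i0 =>
      e9 a W (pQ.infl _) (1, 0, 0, 0) (0, 1, 1, 0) (nE' _ _ (by decide)) (nE' _ _ (by decide)) (L _ _ _ (by decide) (.inl rfl))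
        (L _ _ _ (by revert i; decide) (.inr rfl)) (L _ _ _ (by revert i; decide) (.inr rfl)) (L _ _ _ (by revert i; decide) (.inr rfl))
    exact (pQ.elt (a.ch ch tt t1 k (W.RL k hk _) (le_cent1_iff.1 (e9 a W pQ (1, 0, 0, 0) (0, 0, 0, 1) (nE _ (by decide)) (nE _ (by decide))
      (L' _ (by decide)) (L' _ (by decide)) (L2 1 (by decide)) (L2 2 (by decide)))))).e_eq_one ((W.R6.mono (by simp)).elt hk)
  refine ⟨R0, ?_, g, Ag, cg⟩
  have lQ : Q1 (φ sw12) ≤ C[φ sw12] := Oc_le _ _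
  have ew : ea b φ (0, 1, 1, 0) = φ ww := ea_0 (by decide +kernel)
  have e3 : ea b φ (0, 0, 0, 1) = φ d3 := ea_0 dA3
  have B : ∀ x ∈ Q1 (φ sw12) ⊓ C[ea b φ (1, 0, 0, 0)], ∃ y, x = φ y ∧ κ⁻¹ * y * κ ∈ On := fun x hx =>
    onC a W (pQ.infl _) (by rw [ea_b]; exact inf_le_right) (inf_le_left.trans lQ) (e3 ▸ nE' _ _ (by decide)) (ew ▸ nE' _ _ (by decide)) hx
  by_cases K : Q1 (φ sw12) ⊓ C[ea b φ (1, 0, 0, 0)] ⊓ C[ea b φ (0, 0, 0, 1)] ≤ zpowers (φ sw12)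
  swap
  · obtain ⟨x, hx, n⟩ := SetLike.not_le_iff_exists.1 K
    obtain ⟨y, rfl, o⟩ := B x hx.1
    have := ZL_τ (K := cj κ⁻¹ ((Q1 (φ sw12)).comap φ)) (On_d1 o (cκ ((comm_map W.inj).1 (mem_cent1.1 (e3 ▸ hx.2))) (by decide +kernel)))
      (mem_cj_inv.2 (by simpa [mul_assoc] using hx.1.1)) (mem_cj_inv.2 (by rw [← κsx]; simpa [mul_assoc] using tQ tt))
      (by rw [← cj_norm, mem_cj_inv, show κ * τ * κ⁻¹ = ww by decide +kernel]; exact norm_comap (ew ▸ nE _ (by decide)))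
      (fun e => n (by rw [κ1 e (z := 1) (by simp), map_one]; exact one_mem _)) fun e => n (κ1 e κsx ▸ mem_zpowers _)
    rintro _ ⟨z, hz, rfl⟩
    simpa [mul_assoc] using mem_cj_inv.1 (this (mZW.1 hz))
  have K' : Q1 (φ sw12) ⊓ C[ea b φ (1, 0, 0, 0)] ⊓ C[ea b φ (0, 1, 1, 0)] ≤ zpowers (φ sw12) := fun x hx => by
    obtain ⟨y, rfl, o⟩ := B x hx.1
    rcases On_τ o (cκ ((comm_map W.inj).1 (mem_cent1.1 (ew ▸ hx.2))) (by decide +kernel)) with e | e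
    exacts [by rw [κ1 e (z := 1) (by simp), map_one]; exact one_mem _, κ1 e κsx ▸ mem_zpowers _]
  have tr : ∀ {h m u v}, Ac b φ h m → Commute h (φ sw12) → Q1 (φ sw12) ⊓ C[ea b φ u] ⊓ C[ea b φ v] ≤ zpowers (φ sw12) → ∀ x ∈ Q1 (φ sw12),
      x ∈ C[ea b φ (ap4 m u)] → x ∈ C[ea b φ (ap4 m v)] → x ∈ zpowers (φ sw12) := fun A c k x hx c1 c2 => by
    simpa [mul_assoc] using conj_mem_of_norm (cent1_le_norm_zpowers _ (mem_cent1.2 c))
      (k ⟨⟨conj_mem_of_norm' (nQ c) hx, cjC (A _ ▸ c1)⟩, cjC (A _ ▸ c2)⟩)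
  have c3 : Commute (φ (mg 2)) (φ sw12) := Commute.map (by decide +kernel) φ
  have S2 : Q1 (φ sw12) ⊓ C[ea b φ (1, 0, 0, 1)] ≤ zpowers (φ sw12) :=
    e9 a W (pQ.infl _) (1, 0, 0, 2) (0, 1, 1, 0) (nE' _ _ (by decide)) (nE' _ _ (by decide))
      (fun x hx => K ⟨⟨hx.1.1, csp a W hx.1.2 hx.2 (by decide +kernel)⟩, csp a W hx.1.2 hx.2 (by decide +kernel)⟩)
      (fun x hx => tr Ag cg K x hx.1.1 (csp a W hx.1.2 hx.2 (by decide +kernel)) (csp a W hx.1.2 hx.2 (by decide +kernel)))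
      (fun x hx => tr (amul (amg a W 2) Ag (l := cmp4 (mo4 [2]) nF) (by decide +kernel)) (c3.mul_left cg) K' x hx.1.1
        (csp a W hx.1.2 hx.2 (by decide +kernel)) (csp a W hx.1.2 hx.2 (by decide +kernel)))
      fun x hx => tr (amul (aR a F.toFc) Ag (l := cmp4 mR nF) (by decide +kernel)) ((F.rL _).mul_left cg) K' x hx.1.1
        (csp a W hx.1.2 hx.2 (by decide +kernel)) (csp a W hx.1.2 hx.2 (by decide +kernel))
  obtain ⟨ψ, c⟩ := a.co F.toFc F.nb (show ω H23.F4.e3 f3 = true from rfl)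
  have ag : ∀ z ∈ ZW, ψ z = φ z := fun z hz => by
    have : ZW ≤ S4 H23.F4.e3 f3 := (closure_le _).2 (by rintro _ (rfl | rfl | rfl) <;> exact ⟨T_fix rfl, T_fix rfl⟩)
    exact c.ag z (this hz).1 (this hz).2
  rintro _ ⟨z, hz, rfl⟩
  have zt : zpowers (φ sw12) ≤ C[φ z] := zpowers_le.2 (mem_cent1.2 ((cZW (κsx ▸ ZL_le (κsx ▸ mZW.1 swZ)) hz).map φ))
  refine a.ch ch tt t1 _ (mem_cent1.1 (zt (mem_zpowers _))).symm (le_cent1_iff.1 (e9 a W pQ (1, 0, 0, 0) (0, 0, 0, 1) (nE _ (by decide))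
    (nE _ (by decide)) (fun x hx => ?_) (fun x hx => ?_) (S2.trans zt) fun x hx => zt (tr (v := 0) (amg a W 2) c3
      (inf_le_left.trans S2) x hx.1 (csp a W hx.2 hx.2 (by decide +kernel)) (csp a W hx.2 hx.2 (by decide +kernel)))))
  · obtain ⟨y, rfl, o⟩ := B x hx
    exact mem_cent1.2 ((cZW o hz).map φ)
  · obtain ⟨y, rfl, o⟩ := onC a c.fc.toWc (pQ.infl _) (by rw [e3]; exact inf_le_right) (by rw [ag _ swZ]; exact inf_le_left.trans lQ)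
      (by rw [show ψ d3 = ea b φ (1, 0, 0, 0) from c.hc.trans ea_b.symm]; exact nE' _ _ (by decide))
      (by rw [c.ag ww (by decide +kernel) (by decide +kernel), ← ew]; exact nE' _ _ (by decide)) hx
    exact ag z hz ▸ mem_cent1.2 ((cZW o hz).map ψ)
end H15.SX
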