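/-
S3159, chunks FT, FD: the centralizer of the short element of the `F₄` case.
-/
import Cfsg.Agent.H15.SX1
import Cfsg.Agent.H26.SX4
import Mathlib.GroupTheory.Transfer

set_option autoImplicit false
set_option synthInstance.maxSize 4096
set_option linter.unusedSectionVars false
open Cfsg Subgroup H19 H23.F4 H26.SX
namespace H15.SX
universe u
variable {G : Type u} [Group G] [Finite G] {b r g h k x t w : G} {φ ψ : Sp →* G} {A B M P R : Subgroup G} {m n l : M4} {u v : t4}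

attribute [local instance 5000] List.decidableBAll List.decidableBEx

theorem tsplit (w3 : w ^ 3 = 1) (l : P ≤ C[w]) (n : w ∉ P) (hS : Syl 3 (P ⊔ zpowers w) C[w]) :
    ∃ M ≤ C[w], w ∉ M ∧ (∀ x ∈ C[w], ∃ i : Fin 3, w ^ i.1 * x ∈ M) ∧ #M * 3 = #C[w] := by
  have nw : w ∈ N(P) := cent_le_norm _ (le_cent1_iff.1 l)
  set S := P ⊔ zpowers w
  let H := S.subgroupOf C[w]
  let K := (P.subgroupOf C[w]).subgroupOf H
  have : K.Normal := ⟨fun x m g => conj_mem_of_norm (H := P) (sup_le le_normalizer (zpowers_le.2 nw) g.2) m⟩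
  have c : Nat.card (H ⧸ K) = 3 := by
    have := card_mul_relIndex (le_sup_left : P ≤ S)
    rw [card_sup_zp w3 n nw, ← relIndex_subgroupOf hS.le] at this
    exact Nat.eq_of_mul_eq_mul_left (card_pos P) this
  have := Fact.mk p3
  have := isCyclic_of_prime_card c
  let : CommGroup (H ⧸ K) := IsCyclic.commGroup
  let V := MonoidHom.transfer (QuotientGroup.mk' K)
  let w' : C[w] := ⟨w, mem_cent1_self w⟩
  have k : V w' ≠ 1 := fun e => by
    rw [MonoidHom.transfer_eq_pow _ w' fun k g _ => by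
      rw [mul_assoc, ((show Commute g w' from Subtype.ext (mem_cent1.1 g.2)).pow_right k).symm.eq, inv_mul_cancel_left]] at e
    exact n (mem_of_pow_mem (n := H.index) (hS.idx.coprime_prime p3) (pe3 w3) ((QuotientGroup.eq_one_iff (N := K) _).1 e))
  have z : ∀ y, y ∈ zpowers (V w') := fun y => mem_zpowers_of_prime_card c k
  refine ⟨V.ker.map (C[w]).subtype, map_subtype_le _, fun m => k ((mem_map_iff_mem (subtype_injective _) (x := w')).1 m), fun x hx => ?_, ?_⟩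
  · obtain ⟨i, e⟩ := zp3' (by rw [← map_pow, show w' ^ 3 = 1 from Subtype.ext w3, map_one]) (z (V ⟨x, hx⟩)⁻¹)
    exact ⟨i, w' ^ i.1 * ⟨x, hx⟩, by rw [SetLike.mem_coe, MonoidHom.mem_ker, map_mul, map_pow, ← e, inv_mul_cancel], rfl⟩
  · rw [card_map_of_injective (subtype_injective _), ← V.ker.card_mul_index, index_ker, ← c,
      show V.range = ⊤ from top_unique fun y _ => zpowers_le.2 (MonoidHom.mem_range.2 ⟨w', rfl⟩) (z y), card_top]

abbrev wv : t4 := (0, 1, 1, 0)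
/-- the reflection in `w` -/
def sw : Sp := T e1 * T e2 * sw12
def m3 : M4 := ((2, 1, 2, 2), (1, 2, 2, 2), (2, 2, 2, 1), (1, 1, 2, 1))
def L3 : List M4 := [id4, m3, cmp4 m3 m3]
theorem stw : ∀ x, Lw x → Lw (wv - x) → ∀ c, Lw c → ¬ Lw (c + x) → ¬ Lw (c + 2 • x) → ¬ Lw (c + (wv - x)) → ¬ Lw (c + 2 • (wv - x)) →
    ∀ d, Lw d → ¬ Lw (c + d) → ¬ Lw (c + 2 • d) → ¬ Lw (x + d) → ¬ Lw (x + 2 • d) → ∀ m ∈ [((c, x, wv - x, d) : M4)],
    ∀ n ∈ L3, (∀ v, ap4 m (ap4 m3 v) = ap4 n (ap4 m v)) → ∃ n ∈ L3, ∀ v, ap4 m (ap4 m v) = ap4 n v := by decide +kernel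
theorem ew : ea b φ wv = φ ww := ea_0 (by decide +kernel)
theorem sw2 : φ sw * φ sw = 1 := map_sq (by decide +kernel)
theorem sww : φ sw * φ ww * (φ sw)⁻¹ = (φ ww)⁻¹ := by
  rw [← map_inv, ← map_inv, ← map_mul, ← map_mul]; exact congrArg _ (by decide +kernel)
section
variable (W : Wc b φ R)
include W
theorem asw : Ac b φ (φ sw) (mo4 [0, 1, 3]) := (show ([0, 1, 3].map mg).prod = sw by decide +kernel) ▸ W.amo [0, 1, 3]
theorem w1 : φ ww ≠ 1 := fun e => absurd (W.inj (e.trans (map_one φ).symm)) (by decide +kernel)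
theorem wsw : φ ww ∉ C[φ sw] := fun e => absurd (W.cm.1 (mem_cent1.1 e)) (by decide +kernel)
theorem mA1 : x ∈ AA b φ ⊓ C[φ sw] ↔ ∃ v : t4, v.2.1 + v.2.2.1 = 0 ∧ x = ea b φ v := by
  have k := (by decide +kernel : ∀ v : t4, ap4 (mo4 [0, 1, 3]) v = v ↔ v.2.1 + v.2.2.1 = 0)
  refine ⟨fun ⟨h, c⟩ => ?_, fun ⟨v, h, e⟩ => e ▸ ⟨(W.mem _).2 ⟨v, rfl⟩, mem_cent1.2 (acm (asw W) ((k v).2 h)).symm⟩⟩
  obtain ⟨v, rfl⟩ := (W.mem x).1 h
  exact ⟨v, (k v).1 (W.einj ((asw W v).symm.trans (mul_inv_eq_iff_eq_mul.2 (mem_cent1.1 c).symm))), rfl⟩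
theorem A1w : AA b φ ⊓ C[φ sw] ⊔ zpowers (φ ww) = AA b φ :=
  le_antisymm (sup_le inf_le_left (zpowers_le.2 ((W.mem _).2 ⟨_, ew.symm⟩))) fun x h => by
    obtain ⟨v, rfl⟩ := (W.mem x).1 h
    obtain ⟨u, k, i, rfl⟩ := (by decide +kernel : ∀ v : t4, ∃ u : t4, u.2.1 + u.2.2.1 = 0 ∧ ∃ i : Fin 3, v = u + i.1 • wv) v
    rw [W.add, W.nsm, ew]
    exact mul_mem_sup ((mA1 W).2 ⟨u, k, rfl⟩) (pow_mem (mem_zpowers _) _)
theorem Aw : AA b φ ≤ C[φ ww] := fun x h => let ⟨v, e⟩ := (W.mem x).1 h; e ▸ ew (b := b) (φ := φ) ▸ mem_cent1.2 (W.ecm v _)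
end

theorem ft : FT.{u} := fun a G _ _ b r φ F => by
  have W := F.toWc
  have w3 : φ ww ^ 3 = 1 := map3 (by decide +kernel)
  have cen : ∀ {x}, Ac b φ x id4 → x ∈ AA b φ := fun A => by
    obtain ⟨v, k, hk, e⟩ := W.cen _ A
    exact (W.mem _).2 ⟨v, by rw [e, mem_bot.1 hk, mul_one]⟩
  obtain ⟨ρ, Aρ, ρ3, cρ⟩ : ∃ ρ, Ac b φ ρ m3 ∧ ρ ^ 3 = 1 ∧ Commute ρ (φ sw) := by
    obtain ⟨g, A⟩ := F.nf
    have Ah := amul (amg a W 1) A (l := cmp4 (mo4 [1]) nF) (by decide +kernel)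
    generalize φ (mg 1) * g = h at Ah
    have F' := F.toFc.flc h
    have A1 := amg a W 2
    have A2 := amul (amul Ah (aR a F.toFc) (l := cmp4 (cmp4 (mo4 [1]) nF) mR) (by decide +kernel))
      (ainv Ah (n := cmp4 nF (mo4 [1])) (by decide +kernel)) (l := cmp4 (mo4 [2]) m3) (by decide +kernel)
    have A3 := amul A1 A2 (l := m3) (by decide +kernel)
    have s1 : φ (mg 2) * φ (mg 2) = 1 := map_sq (by decide +kernel)
    have s2 := F'.rr
    obtain ⟨y, e⟩ := F'.m2 (φ sw) (acb Ah ▸ acm (asw W) (by decide +kernel)) (pe2 sw2)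
    refine ⟨_, A3, ?_, (Commute.map (by decide +kernel) φ).mul_left (e ▸ F'.rL y)⟩
    generalize h * r * h⁻¹ = t at *
    generalize φ (mg 2) = s at *
    obtain ⟨v, e⟩ := (W.mem _).1 (cen (amul (amul A3 A3 (l := cmp4 m3 m3) (by decide +kernel)) A3 (by decide +kernel)))
    have i1 := inv_eq_of_mul_eq_one_right s1
    have i2 := inv_eq_of_mul_eq_one_right s2
    rw [pow_three', e, (by decide +kernel : ∀ v, ap4 (mo4 [2]) v = -v → ap4 (cmp4 (mo4 [2]) m3) v = -v → v = 0) v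
      (W.einj (by rw [← A1, W.neg, ← e]; simp only [mul_inv_rev, i1, i2, ← mul_assoc, s1, one_mul]))
      (W.einj (by rw [← A2, W.neg, ← e]; simp only [mul_inv_rev, i1, i2, mul_assoc, s2, mul_one])), W.zero]
  have ρn : ρ ∈ N(AA b φ) := (W.nac ρ).2 ⟨_, Aρ⟩
  have Aid : ∀ x ∈ AA b φ, Ac b φ x id4 := fun x h v => by
    rw [(by decide +kernel : ∀ v, ap4 id4 v = v), mul_comm_of_comm W.cA.2.1 h ((W.mem _).2 ⟨v, rfl⟩), mul_inv_cancel_right]
  have ρA : ρ ∉ AA b φ := fun h => absurd (W.auq Aρ (Aid _ h)) (by decide)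
  have Ai : Ac b φ ρ⁻¹ (cmp4 m3 m3) := ainv Aρ (by decide +kernel)
  have hP : ∀ y, y ∈ AA b φ ⊔ zpowers ρ ↔ ∃ n ∈ L3, Ac b φ y n := fun y => by
    refine ⟨fun h => ?_, ?_⟩
    · obtain ⟨x, hx, z, hz, rfl⟩ := (mem_sup_of_norm (zpowers_le.2 ρn)).1 h
      rcases zp3 ρ3 hz with rfl | rfl | rfl
      exacts [⟨id4, by simp [L3], by simpa using Aid x hx⟩, ⟨m3, by simp [L3], amul (Aid x hx) Aρ (by decide +kernel)⟩,
        ⟨cmp4 m3 m3, by simp [L3], amul (Aid x hx) Ai (by decide +kernel)⟩]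
    simp only [L3, List.mem_cons, List.not_mem_nil, or_false]
    rintro ⟨_, rfl | rfl | rfl, h⟩
    exacts [mem_sup_left (cen h), (mul_mem_cancel_right (inv_mem (mem_sup_right (mem_zpowers ρ)))).1 (mem_sup_left (cen (amul h Ai (by decide +kernel)))),
      (mul_mem_cancel_right (mem_sup_right (mem_zpowers ρ))).1 (mem_sup_left (cen (amul h Aρ (by decide +kernel))))]
  have cP : #(AA b φ ⊔ zpowers ρ) = 243 := by rw [card_sup_zp ρ3 ρA ρn, W.cA.1]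
  have lP : AA b φ ⊔ zpowers ρ ≤ C[φ ww] := sup_le (Aw W) (zpowers_le.2 (mem_cent1.2 (ew (b := b) (φ := φ) ▸ acm Aρ (by decide +kernel))))
  have hS : Syl 3 (AA b φ ⊔ zpowers ρ) C[φ ww] := syl_pow (m := 2) (by decide) (PiN.of_card_pow (k := 5) p3 cP) lP fun k hk n => by
    have l := cj_le_of_mem_norm n (le_sup_left : AA b φ ≤ _)
    obtain ⟨m, A⟩ := (W.nac k).1 (mem_norm_of_cj_le fun x hx => by_contra fun nx => by
      obtain ⟨n, hn, An⟩ := (hP x).1 (l hx)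
      have h1 : AA b φ ⊓ cj k (AA b φ) ≤ zpowers (ea b φ wv) ⊔ zpowers (ea b φ (1, 1, 2, 0)) := fun y hy => by
        obtain ⟨v, rfl⟩ := (W.mem y).1 hy.1
        obtain ⟨i, j, rfl⟩ := (by decide +kernel : ∀ n ∈ L3, n ≠ id4 → ∀ v, ap4 n v = v → ∃ i j : Fin 3, v = i.1 • wv + j.1 • (1, 1, 2, 0))
          n hn (fun e => nx (cen (e ▸ An))) v (W.einj ((An v).symm.trans
            (mul_inv_eq_iff_eq_mul.2 (mul_comm_of_comm (comm_cj.2 W.cA.2.1) hx hy.2))))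
        rw [W.add, W.nsm, W.nsm]
        exact mul_mem_sup (pow_mem (mem_zpowers _) _) (pow_mem (mem_zpowers _) _)
      have h2 := (card_le h1).trans (Nat.le_of_dvd (Nat.mul_pos (card_pos _) (card_pos _))
        (card_sup_dvd (zpowers_le.2 (cent1_le_norm_zpowers _ (mem_cent1.2 (W.ecm _ _))))))
      have z : ∀ v, v ≠ 0 → #(zpowers (ea b φ v)) = 3 := fun v n => card_zp (W.e3 v) fun e => n (W.einj (e.trans W.zero.symm))
      have h3 := card_inf_mul_relIndex (AA b φ) (cj k (AA b φ))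
      have h4 := relIndex_le_of_le_right (H := AA b φ) l (relIndex_ne_zero' _ _)
      have h5 := card_mul_relIndex (le_sup_left : AA b φ ≤ AA b φ ⊔ zpowers ρ)
      rw [W.cA.1, cP] at h5
      rw [z _ (by decide), z _ (by decide)] at h2
      rw [card_cj, W.cA.1] at h3
      have := Nat.mul_le_mul h2 (h4.trans (by omega : _ ≤ 3))
      omega)
    obtain ⟨n', hn, An⟩ := (hP _).1 (conj_mem_of_norm n (mem_sup_right (mem_zpowers ρ)))
    have lg : ∀ v, Lw (ap4 m v) ↔ Lw v := fun v => (F.lg _).symm.trans ((Wc.lga A v).trans (F.lg v))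
    have e : m.2.2.1 = wv - m.2.1 := by
      rw [eq_sub_iff_add_eq', ← show ap4 m wv = wv from W.einj ((A wv).symm.trans (by rw [ew, mem_cent1.1 hk, mul_inv_cancel_right]))]
      simp [ap4]
    obtain ⟨c, x, y, d⟩ := m
    obtain rfl : y = wv - x := e
    have q := fun v h => (lg v).2 h
    have q' := fun v h => mt (lg v).1 h
    obtain ⟨n, h, e⟩ := stw x (by simpa [ap4] using q (0, 1, 0, 0) (by decide)) (by simpa [ap4] using q (0, 0, 1, 0) (by decide))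
      c (by simpa [ap4] using q (1, 0, 0, 0) (by decide)) (by simpa [ap4] using q' (1, 1, 0, 0) (by decide))
      (by simpa [ap4] using q' (1, 2, 0, 0) (by decide)) (by simpa [ap4] using q' (1, 0, 1, 0) (by decide))
      (by simpa [ap4] using q' (1, 0, 2, 0) (by decide)) d (by simpa [ap4] using q (0, 0, 0, 1) (by decide))
      (by simpa [ap4] using q' (1, 0, 0, 1) (by decide)) (by simpa [ap4] using q' (1, 0, 0, 2) (by decide))
      (by simpa [ap4] using q' (0, 1, 0, 1) (by decide)) (by simpa [ap4] using q' (0, 1, 0, 2) (by decide)) _ (List.mem_singleton_self _) n' hn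
      fun v => W.einj (by rw [← A, ← Aρ, ← An, ← A]; group)
    exact (hP _).2 ⟨n, h, pow_two k ▸ amul A A e⟩
  have e : (AA b φ ⊔ zpowers ρ) ⊓ C[φ sw] ⊔ zpowers (φ ww) = AA b φ ⊔ zpowers ρ :=
    le_antisymm (sup_le inf_le_left (le_sup_left.trans' (le_sup_right.trans (A1w W).le))) (sup_le ((A1w W).ge.trans
      (sup_le_sup_right (inf_le_inf_right _ le_sup_left) _)) (le_sup_left.trans' (le_inf le_sup_right (zpowers_le.2 (mem_cent1.2 cρ)))))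
  obtain ⟨M, h1, h2, h3, h4⟩ := tsplit w3 (inf_le_left.trans lP) (fun h => wsw W h.2) (e.symm ▸ hS)
  have h5 := card_mul_relIndex lP
  have h6 := hS.idx.not_dvd p3 (by simp)
  rw [cP, ← h4] at h5
  exact ⟨M, h1, h2, h3, by omega, by omega⟩

theorem inM (Z : Mz w M) (w3 : w ^ 3 = 1) (hx : x ∈ C[w]) (ht : t ∈ C[w]) (e : t * x * t⁻¹ = x⁻¹) : x ∈ M := by
  obtain ⟨i, hi⟩ := Z.sup x hx
  obtain ⟨j, hj⟩ := Z.sup t ht
  have cx : Commute x w := mem_cent1.1 hx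
  have := mul_mem hi (mul_mem (mul_mem hj hi) (inv_mem hj))
  rw [show w ^ j.1 * t * (w ^ i.1 * x) * (w ^ j.1 * t)⁻¹ = w ^ j.1 * (t * w ^ i.1 * t⁻¹ * (t * x * t⁻¹)) * (w ^ j.1)⁻¹ by group, e,
    (Commute.pow_right (mem_cent1.1 ht) _).eq, mul_inv_cancel_right,
    ((Commute.pow_pow_self w _ _).mul_right (cx.inv_left.pow_right _).symm).eq, mul_inv_cancel_right, mul_assoc, ← mul_assoc x,
    (cx.pow_right _).eq, mul_inv_cancel_right, ← sq] at this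
  exact (mul_mem_cancel_left (mem_of_pow_mem (by decide) (pe3 (by rw [pow_right_comm, w3, one_pow])) this)).1 hi
theorem cla : ∀ a : t4, a.2.1 + a.2.2.1 = 0 → ∀ b : t4, b.2.1 + b.2.2.1 = 0 → (Lw a ↔ Lw b) → (Lw (a + b) ↔ Lw (a + 2 • b)) →
    ∀ c : t4, c.2.1 + c.2.2.1 = 0 → (Lw a ↔ Lw c) ∧ (Lw (a + b) ↔ Lw (a + c)) ∧ (Lw (a + b) ↔ Lw (a + 2 • c)) ∧
    (Lw (a + b) ↔ Lw (b + c)) ∧ (Lw (a + b) ↔ Lw (b + 2 • c)) ∧ (Lw (a + b + c) ↔ Lw (a + b + 2 • c)) ∧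
    (Lw (a + b + c) ↔ Lw (a + 2 • b + c)) ∧ (Lw (a + b + c) ↔ Lw (2 • a + b + c)) → (∀ v, ap4 (wv, a, b, c) v = 0 → v = 0) →
    wt a = 2 ∧ Lw (a + b) ∧ wt (a + b + c) = 3 ∧ Lw (wv + a) := by decide +kernel

theorem fd : FD.{u} := fun a G _ _ b r φ M F Z ⟨e⟩ => by
  have W := F.toWc
  have w3 : φ ww ^ 3 = 1 := map3 (by decide +kernel)
  let χ0 : Sp →* G := M.subtype.comp e.toMonoidHom
  have i0 : Function.Injective χ0 := Subtype.val_injective.comp e.injective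
  have r0 : M ≤ χ0.range := fun x h => ⟨e.symm ⟨x, h⟩, by simp [χ0]⟩
  have W0 : Wc (φ ww) χ0 ⊥ := ⟨ord3 w3 (w1 W), i0, fun y => (mem_cent1.1 (Z.le (e y).2)).symm, by simp, by simp, PiN.bot, fun x c => by
    obtain ⟨i, h⟩ := Z.sup x (mem_cent1.2 c)
    obtain ⟨y, k⟩ := r0 h
    exact ⟨-i, 1, y, one_mem _, by rw [k, mul_one, ← mul_assoc, ← pow_fin w3, neg_add_cancel]; simp⟩⟩
  have lM : AA b φ ⊓ C[φ sw] ≤ M := fun x hx => by
    have A := amul (amul (aR a F.toFc) (amg a W 2) (l := cmp4 mR (mo4 [2])) (by decide +kernel)) (amg a W 3)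
      (l := cmp4 mR (mo4 [2, 3])) (by decide +kernel)
    obtain ⟨v, h, rfl⟩ := (mA1 W).1 hx
    exact inM Z w3 (Aw W hx.1) (mem_cent1.2 (ew (b := b) (φ := φ) ▸ acm A (by decide +kernel))) (by
      rw [A, ← W.neg, (by decide +kernel : ∀ v : t4, v.2.1 + v.2.2.1 = 0 → ap4 (cmp4 mR (mo4 [2, 3])) v = -v) v h])
  have mp := map_comap_eq_self (lM.trans r0)
  have c27 : #((AA b φ ⊓ C[φ sw]).comap χ0) = 27 := by
    have := card_sup_zp w3 (P := AA b φ ⊓ C[φ sw]) (fun h => wsw W h.2) (cent_le_norm _ (le_cent1_iff.1 (inf_le_left.trans (Aw W))))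
    rw [A1w W, W.cA.1, ← mp, card_map_of_injective i0] at this
    omega
  obtain ⟨g, k⟩ := conj27 ⟨⟨fun x y => Subtype.ext (i0 (by
    simpa using mul_comm_of_comm W.cA.2.1 x.2.1 y.2.1))⟩⟩ (PiN.of_card_pow (k := 3) p3 c27) c27
  have W' := W0.wcf g⁻¹
  have mp' : AM.map (cf χ0 g⁻¹) = AA b φ ⊓ C[φ sw] := by
    rw [← k, cf, ← map_map, ← mp]; exact congrArg _ ((cj_cj ..).trans (by rw [inv_mul_cancel, cj_one, mp]))
  generalize cf χ0 g⁻¹ = χ at W' mp'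
  have AA' : AA (φ ww) χ = AA b φ := by rw [AA, mp', sup_comm, A1w W]
  have m1 : ∀ t, χ (dA t) ∈ AA b φ ⊓ C[φ sw] := fun t => mp' ▸ mem_map_of_mem χ ⟨t, rfl⟩
  obtain ⟨x, hx, ex⟩ := (mA1 W).1 (dA1 ▸ m1 (1, 0, 0))
  obtain ⟨y, hy, ey⟩ := (mA1 W).1 (dA2 ▸ m1 (0, 1, 0))
  obtain ⟨z, hz, ez⟩ := (mA1 W).1 (dA3 ▸ m1 (0, 0, 1))
  have E : ∀ v, ea (φ ww) χ v = ea b φ (ap4 (wv, x, y, z) v) := fun v => by
    simp only [ap4, W.add, W.nsm, ← ex, ← ey, ← ez, ew]; simp only [ea, dA, map_mul, map_pow, mul_assoc]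
  have q : ∀ l t, Lw (ap4 (wv, x, y, z) (0, t)) ↔ Lw (ap4 (wv, x, y, z) (0, List.foldr ma t l)) := fun l t => by
    rw [Lw, Lw, ← F.lg, ← F.lg, Lg, Lg, ← E, ← E, ea1, ea1, ← mw_conj, map_mul, map_mul, map_inv]
    exact ⟨fun h => h.trans (isConj_iff.2 ⟨_, rfl⟩), fun h => h.trans (isConj_iff.2 ⟨_, rfl⟩).symm⟩
  obtain ⟨h1, h2, h3, h4⟩ := cla x hx y hy (by simpa [ap4, ma] using q [3] (1, 0, 0)) (by simpa [ap4, ma] using q [1] (1, 1, 0)) z hz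
    ⟨by simpa [ap4, ma] using q [4, 3] (1, 0, 0), by simpa [ap4, ma] using q [4] (1, 1, 0), by simpa [ap4, ma] using q [2, 4] (1, 1, 0),
      by simpa [ap4, ma] using q [3, 4] (1, 1, 0), by simpa [ap4, ma] using q [2, 3, 4] (1, 1, 0), by simpa [ap4, ma] using q [2] (1, 1, 1),
      by simpa [ap4, ma] using q [1] (1, 1, 1), by simpa [ap4, ma] using q [0] (1, 1, 1)⟩
    fun v h => W'.einj (by rw [E, h, W.zero, W'.zero])
  have cj : ∀ x ∈ {x | IsConj b x ∨ IsConj (φ ww) x}, ∀ g : G, g * x * g⁻¹ ∈ {x | IsConj b x ∨ IsConj (φ ww) x} := fun x hx g =>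
    hx.imp (·.trans (isConj_iff.2 ⟨g, rfl⟩)) (·.trans (isConj_iff.2 ⟨g, rfl⟩))
  have L : ∀ v, Lw v → ea b φ v ∈ {x | IsConj b x ∨ IsConj (φ ww) x} := fun v h => .inl ((F.lg v).2 h)
  have S : ∀ v, wt v = 2 → ea b φ v ∈ {x | IsConj b x ∨ IsConj (φ ww) x} := fun v h => by
    obtain ⟨n, A⟩ := F.nb
    obtain ⟨l, -, rfl | rfl | rfl⟩ := (by decide +kernel : ∀ v, wt v = 2 → ∃ l ∈ monoW, v = ap4 (mo4 l) wv ∨ v = ap4 (mo4 l) (ap4 nB wv) ∨
      v = ap4 mR (ap4 (mo4 l) (ap4 nB wv))) v h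
    · rw [← W.amo]; exact cj _ (.inr (ew (b := b) (φ := φ) ▸ IsConj.refl _)) _
    · rw [← W.amo, ← A]; exact cj _ (cj _ (.inr (ew (b := b) (φ := φ) ▸ IsConj.refl _)) _) _
    · rw [← aR a F.toFc, ← W.amo, ← A]; exact cj _ (cj _ (cj _ (.inr (ew (b := b) (φ := φ) ▸ IsConj.refl _)) _) _) _
  have N : ∀ v, wt v = 3 → ea b φ v ∉ {x | IsConj b x ∨ IsConj (φ ww) x} := fun v h c => c.elim
    (fun c => by have := (F.lg v).1 c; omega) fun c => by
    obtain ⟨u, k⟩ := (W'.mem _).1 (AA' ▸ (W.mem _).2 ⟨v, rfl⟩)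
    obtain ⟨m, ⟨g, A⟩, rfl⟩ := (W'.fus u).1 (show IsConj _ _ from k ▸ c)
    obtain ⟨n, A'⟩ := (W.nac g).1 (AA' ▸ (W'.nac g).2 ⟨m, A⟩)
    have lg : ∀ v, Lw (ap4 n v) ↔ Lw v := fun v => (F.lg _).symm.trans ((Wc.lga A' v).trans (F.lg v))
    refine (by decide +kernel : ∀ u, Lw u → ∀ v, Lw v → ¬ Lw (u + 2 • v) → wt (u + v) ≠ 3) n.2.1
      (by simpa [ap4] using (lg (0, 1, 0, 0)).2 (by decide)) n.2.2.1 (by simpa [ap4] using (lg (0, 0, 1, 0)).2 (by decide))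
      (by simpa [ap4] using mt (lg (0, 1, 2, 0)).1 (by decide)) ?_
    rwa [← show ap4 n wv = v from W.einj ((A' wv).symm.trans (by rw [ew, acb A, k])), show ap4 n wv = n.2.1 + n.2.2.1 by simp [ap4]] at h
  have F' : Fc (φ ww) (φ sw) χ ⊥ := ⟨W', sw2, sww, W'.cenL _ sw2 (.inr sww) (mem_cent1.1 (dA1 ▸ m1 (1, 0, 0)).2).symm
    (mem_cent1.1 (dA2 ▸ m1 (0, 1, 0)).2).symm (mem_cent1.1 (dA3 ▸ m1 (0, 0, 1)).2).symm, by simp⟩
  refine ⟨cj, ⟨b, .inl (IsConj.refl b)⟩, fun θ hθ => hθ.elim (fun c => ?_) fun c => ?_⟩ <;> obtain ⟨k, rfl⟩ := isConj_iff.1 c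
  · exact F.toFc.fr cj (.inl (IsConj.refl b)) (ea_0 (b := b) dA1 ▸ L _ (by decide)) (.inr (IsConj.refl _))
      (by rw [← ea_0 (b := b) (y := d1 * d2 * d3) (s := (1, 1, 1)) (by decide +kernel)]; exact N _ (by decide)) (by simpa [ea, dA1] using S (1, 1, 0, 0) (by decide)) k
  · refine F'.fr cj (.inr (IsConj.refl _)) (ex ▸ S x h1) ?_ ?_ ?_ k
    exacts [by rw [map_mul, ex, ey, ← W.add]; exact L _ h2, by rw [map_mul, map_mul, ex, ey, ez, ← W.add, ← W.add]; exact N _ h3,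
      by have := L _ h4; rwa [W.add, ew, ← ex] at this]
end H15.SX
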