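/-
Odd-order elements with a small commutator space on a normal elementary abelian 2-subgroup.
-/
import Cfsg.Agent.H4.BG4b

set_option autoImplicit false
set_option linter.unusedSectionVars false

namespace H15.Sm
open Cfsg Subgroup H19
open scoped commutatorElement

variable {G : Type*} [Group G] [Finite G] {M W A B E F P V L : Subgroup G} {x y c g : G} {r d k n : ℕ}

/-- the elements centralizing `M / W` -/
def T (M W : Subgroup G) [h : M.Normal] : Subgroup G where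
  carrier := {y | ∀ m ∈ M, m⁻¹ * (y * m * y⁻¹) ∈ W}
  one_mem' := fun m _ => by simp
  mul_mem' := fun {a b} ha hb m hm => by
    have := W.mul_mem (hb m hm) (ha _ (h.conj_mem m hm b))
    convert this using 1; group
  inv_mem' := fun {a} ha m hm => by
    have := W.inv_mem (ha _ (h.conj_mem m hm a⁻¹))
    convert this using 1; group

/-- `[M, y]` -/
abbrev U (M : Subgroup G) (y : G) : Subgroup G := ⁅M, zpowers y⁆

/-- `|GL_n(2)|` -/
def gl (n : ℕ) : ℕ := ∏ i : Fin n, (2 ^ n - 2 ^ (i : ℕ))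

variable [hn : M.Normal]

theorem U_le : U M y ≤ W ↔ y ∈ T M W := by
  refine ⟨fun h m hm => h ?_, fun h => commutator_le.2 fun m hm q hq => ?_⟩
  · have := commutator_mem_commutator (M.inv_mem hm) (mem_zpowers y)
    convert this using 1; rw [commutatorElement_def]; group
  · have := zpowers_le.2 h hq _ (M.inv_mem hm)
    convert this using 1; rw [commutatorElement_def]; group

theorem self_T : y ∈ T M (U M y) := U_le.1 le_rfl

theorem cent_T : C(M) ≤ T M W := fun c hc m hm => by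
  rw [← mem_cent.1 hc m hm]; simp

theorem U_M : U M y ≤ M := commutator_le_left _ _

theorem U_mul (hc : c ∈ C(M)) : U M (y * c) = U M y :=
  le_antisymm (U_le.2 (mul_mem self_T (cent_T hc)))
    (U_le.2 (by simpa using mul_mem (self_T (y := y * c)) (cent_T (inv_mem hc))))

theorem nM (g : G) : g ∈ N(M) := (normalIn_top (H := M)).norm (mem_top g)

theorem U_cj : cj g (U M y) = U M (g * y * g⁻¹) := by
  rw [cj_comm, cj_zpowers, cj_of_mem_norm (nM g)]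

theorem T_norm (h : W ≤ M) : T M W ≤ N(W) := fun y hy => mem_norm_of_cj_le fun w hw => by
  obtain ⟨v, hv, rfl⟩ := mem_cj'.1 hw
  simpa using W.mul_mem hv (hy v (h hv))

theorem cop (hM : Abelem 2 M) (ho : PiE {2}ᶜ y) (h : y ∈ C(U M y)) : y ∈ C(M) :=
  cents_of_commg_le_cent (zpowers_le.2 (nM y))
    ((abelem_pg Nat.prime_two hM).coprime (piG_zpowers.2 ho)) (cents_symm (zpowers_le.2 h)) (mem_zpowers y)

omit hn in
theorem idx (hM : Abelem 2 M) (h : W ≤ M) (hA : A ≤ N(W)) (hd : #W ≤ 2 ^ d) :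
    ∃ n ≤ d, C(W).relIndex A ∣ gl n := by
  obtain ⟨n, hE⟩ := abelem_el Nat.prime_two (abelem_mono hM h) le_rfl
  have := Fact.mk hE.prime
  obtain ⟨φ, -, e, -⟩ := H18.exists_GL_hom hE hA
  refine ⟨n, (Nat.pow_le_pow_iff_right one_lt_two).1 (hE.card ▸ hd), ?_⟩
  rw [relIndex, ← e, index_ker]
  exact (card_subgroup_dvd_card _).trans (by rw [Matrix.card_GL_field, ZMod.card, gl])

omit hn in
theorem idx_le (hM : Abelem 2 M) (h : W ≤ M) (hA : A ≤ N(W)) (hd : #W ≤ 2 ^ d) (hp : PG r A)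
    (hk : ∀ n ≤ d, ¬ r ^ (k + 1) ∣ gl n) : C(W).relIndex A ∣ r ^ k := by
  obtain ⟨n, h1, h2⟩ := idx hM h hA hd
  obtain ⟨j, hj⟩ := (hp.relIndex C(W)).exists_pow (relIndex_ne_zero' _ _)
  rw [hj] at h2 ⊢
  refine pow_dvd_pow _ (Nat.le_of_lt_succ (lt_of_not_ge fun e => hk n h1 ((pow_dvd_pow _ e).trans h2)))

omit hn in
theorem der_cent (hM : Abelem 2 M) (hr : r.Prime) (h : W ≤ M) (hA : A ≤ N(W)) (hd : #W ≤ 2 ^ d) (hp : PG r A)
    (hk : ∀ n ≤ d, ¬ r ^ 3 ∣ gl n) {a b : G} (ha : a ∈ A) (hb : b ∈ A) : a * b * a⁻¹ * b⁻¹ ∈ C(W) := by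
  have n := hA.trans (norm_le_norm_cent W)
  exact (ab_quo_iff n).1 (ab_of_card_sq hr (card_quo n ▸ idx_le hM h hA hd hp hk))
    (commutator_mem_commutator ha hb)

/-- an abelian normal subgroup of an `r`-group normalizes the small commutator spaces -/
theorem nb (hM : Abelem 2 M) (hr : r.Prime) (h2 : r ≠ 2) (hk : ∀ n ≤ d + d, ¬ r ^ 3 ∣ gl n) (hP : PG r P)
    (hB : B ⊴ P) (ab : Ab B) (hy : y ∈ P) (hd : #(U M y) ≤ 2 ^ d) : B ≤ N(U M y) := by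
  intro b hb
  have o : ∀ z ∈ P, z ∈ C(U M z) → z ∈ C(M) := fun z hz => cop hM ((hP.elt hz).sing_ne h2)
  have bP := hB.le hb
  obtain ⟨y', e⟩ : ∃ y', y' = b * y * b⁻¹ := ⟨_, rfl⟩
  have hy' : y' ∈ P := e ▸ mul_mem (mul_mem bP hy) (inv_mem bP)
  obtain ⟨W, eW⟩ : ∃ W, W = U M y ⊔ U M y' := ⟨_, rfl⟩
  have WM : W ≤ M := eW ▸ sup_le U_M U_M
  have cW : #W ≤ 2 ^ (d + d) := by
    have := card_sup_dvd (norms_of_comm hM.1 (U_M (y := y')) (U_M (y := y)))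
    rw [← eW, e, ← U_cj, card_cj] at this
    rw [pow_add]
    exact (Nat.le_of_dvd (Nat.mul_pos (card_pos _) (card_pos _)) this).trans (Nat.mul_le_mul hd hd)
  have j1 : y ∈ P ⊓ T M W := ⟨hy, U_le.1 (eW ▸ le_sup_left)⟩
  have j2 : y' ∈ P ⊓ T M W := ⟨hy', U_le.1 (eW ▸ le_sup_right)⟩
  have c1 := der_cent hM hr WM (inf_le_right.trans (T_norm WM)) cW (hP.infl _) hk (inv_mem j2) j1
  have c0 := mul_mem (mul_mem (mul_mem (inv_mem j2) j1) (inv_mem (inv_mem j2))) (inv_mem j1)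
  have c2 := o _ c0.1 (cent_mono (U_le.2 c0.2) c1)
  have z0 := mul_mem (inv_mem j1) j2
  have zB : y⁻¹ * y' ∈ B := by
    have := mul_mem (conj_mem_of_norm' (hB.norm hy) hb) (inv_mem hb)
    rw [e]; convert this using 1; group
  have k1 : y ∈ P ⊓ N(U M (y⁻¹ * y')) := ⟨hy, mem_norm_iff_cj.2 (by
    rw [U_cj, ← U_mul (y := y⁻¹ * y') c2]; congr 1; group)⟩
  have k2 : b ∈ P ⊓ N(U M (y⁻¹ * y')) := ⟨bP, mem_norm_iff_cj.2 (by
    rw [U_cj, mul_comm_of_comm ab hb zB, mul_inv_cancel_right])⟩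
  have c3 := der_cent hM hr U_M inf_le_right ((card_le (U_le.2 z0.2)).trans cW) (hP.infl _) hk (inv_mem k1) k2
  have c4 := o _ z0.1 (by convert c3 using 1; rw [e]; group)
  rw [mem_norm_iff_cj, U_cj, ← e, ← U_mul (y := y) c4, mul_inv_cancel_left]

/-- the conclusion -/
def Cn (V : Subgroup G) : Prop :=
  ∃ (r : ℕ) (F : Subgroup G), r.Prime ∧ r ≠ 2 ∧ Abelem r F ∧ #F = r ^ 3 ∧ ¬ Cyc (F ⊓ C(V))

omit hn in
theorem fin (hM : Abelem 2 M) (h2 : r ≠ 2) (hF : El r 3 F P) (h : W ≤ M) (hA : F ≤ N(W)) (hd : #W ≤ 2 ^ d)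
    (hk : ∀ n ≤ d, ¬ r ^ 2 ∣ gl n) (hV : V ≤ W) : Cn V := by
  refine ⟨r, F, hF.prime, h2, hF.ab, hF.card, fun hc => ?_⟩
  have i := Nat.le_of_dvd (pow_pos hF.prime.pos _) (idx_le (k := 1) hM h hA hd hF.pg hk)
  have e := card_inf_mul_relIndex C(W) F
  obtain ⟨D, h1, h3⟩ := (hF.pg.infr C(W)).exists_card_pow hF.prime (k := 2) (by
    refine Nat.le_of_mul_le_mul_right ?_ (pow_pos hF.prime.pos 1)
    rw [← pow_add, ← hF.card, ← e]
    exact Nat.mul_le_mul_left _ i)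
  exact El.not_cyc (n := 0) ⟨hF.prime, le_rfl, abelem_mono hF.ab (h1.trans inf_le_right), h3⟩
    (cyc_mono hc (le_inf (h1.trans inf_le_right) (h1.trans (inf_le_left.trans (cent_mono hV)))))

theorem g1 : ∀ n ≤ 1, gl n = 1 := by decide
theorem g23 : ∀ n ≤ 2, ¬ 3 ^ 2 ∣ gl n := by decide
theorem g43 : ∀ n ≤ 2 + 2, ¬ 3 ^ 3 ∣ gl n := by decide +kernel
theorem g2 : ∀ n ≤ 2, gl n ∣ 6 := by decide
theorem g4 : ∀ n ≤ 4, gl n ∣ 2 ^ 6 * 3 ^ 2 * 5 * 7 := by decide +kernel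
theorem g8 : ∀ n ≤ 8, gl n ∣ 2 ^ 28 * 3 ^ 5 * (5 * 7 * 17 * 31 * 127) ^ 2 := by decide +kernel

theorem small (hM : Abelem 2 M) (h2 : r ≠ 2) (hk : ∀ n ≤ d + d, ¬ r ^ 3 ∣ gl n) (hP : PG r P) (h3 : 2 < prk r P) :
    ∃ B, El r 3 B P ∧ ∀ y ∈ P, #(U M y) ≤ 2 ^ d → B ≤ N(U M y) := by
  have hr := prime_of_prk_pos (lt_trans two_pos h3)
  obtain ⟨j, hj⟩ := hP.exists_card
  obtain ⟨B, h1, h4⟩ := H4.exists_normal_El3 hP (hj ▸ (hr.odd_of_ne_two h2).pow) h3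
  exact ⟨B, h1, fun y hy hd => nb hM hr h2 hk hP h4 h1.ab.1 hy hd⟩

omit hn in
theorem pow_cent (hx : x ∈ C(A)) (hy : y ∈ N(A)) (n : ℕ) : (x * y) ^ n * (y ^ n)⁻¹ ∈ C(A) := by
  induction n with
  | zero => simp
  | succ n ih =>
    have := mul_mem hx (conj_mem_of_norm (norm_le_norm_cent A hy) ih)
    rw [pow_succ', pow_succ']; convert this using 1; group

theorem big {p : ℕ} (hp : p.Prime) (h2 : p ≠ 2) (h3 : p ≠ 3) :
    (∀ n ≤ 2, ¬ p ^ 1 ∣ gl n) ∧ (∀ n ≤ 4, ¬ p ^ 2 ∣ gl n) ∧ ∀ n ≤ 4 + 4, ¬ p ^ 3 ∣ gl n := by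
  have c (k a b : ℕ) : (p ^ k).Coprime (2 ^ a * 3 ^ b) :=
    (((Nat.coprime_primes hp Nat.prime_two).2 h2).pow _ _).mul_right
      (((Nat.coprime_primes hp Nat.prime_three).2 h3).pow _ _)
  have sq : Squarefree (5 * 7 * 17 * 31 * 127) := by
    simp only [Nat.squarefree_mul_iff]
    refine ⟨by norm_num, ⟨by norm_num, ⟨by norm_num, ⟨by norm_num, ?_, ?_⟩, ?_⟩, ?_⟩, ?_⟩ <;>
      exact Prime.squarefree (Nat.prime_iff.1 (by norm_num))
  refine ⟨fun n h e => ?_, fun n h e => ?_, fun n h e => ?_⟩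
  · exact hp.one_lt.ne' (by simpa using (c 1 1 1).eq_one_of_dvd (e.trans (g2 n h)))
  · have := (c 2 6 2).dvd_of_dvd_mul_left (e.trans (mul_assoc (2 ^ 6 * 3 ^ 2) 5 7 ▸ g4 n h))
    exact hp.not_isUnit (sq p ((pow_two p ▸ this).trans (by norm_num)))
  · have := (c 3 28 5).dvd_of_dvd_mul_left (e.trans (g8 n h))
    obtain ⟨m, hm⟩ := hp.dvd_of_dvd_pow ((dvd_pow_self p three_ne_zero).trans this)
    rw [hm, mul_pow, pow_succ] at this
    have := hp.dvd_of_dvd_pow (Nat.dvd_of_mul_dvd_mul_left (pow_pos hp.pos 2) this)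
    exact hp.not_isUnit (sq p (hm ▸ Nat.mul_dvd_mul_left p this))

theorem pcase (hM : Abelem 2 M) {p : ℕ} (h2 : p ≠ 2) (p3 : p ≠ 3) (hx : PiE {3} x) (h4 : #(U M x) = 4)
    (pL : PG p L) (nL : x ∈ N(L)) (r3 : 2 < prk p L) : Cn (U M x) := by
  have hp := prime_of_prk_pos (lt_trans two_pos r3)
  have hX := piG_zpowers.2 hx
  obtain ⟨b1, b2, b3⟩ := big hp h2 p3
  obtain ⟨B, h1, h5⟩ := small (d := 4) hM h2 b3 pL r3
  by_cases nV : L ≤ N(U M x)
  · exact fin (d := 2) hM h2 h1 U_M (h1.le.trans nV) h4.le (fun n h => b2 n (by omega)) le_rfl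
  obtain ⟨l, hl, nl⟩ := SetLike.not_le_iff_exists.1 nV
  obtain ⟨W, eW⟩ : ∃ W, W = U M x ⊔ U M (l * x * l⁻¹) := ⟨_, rfl⟩
  have WM : W ≤ M := eW ▸ sup_le U_M U_M
  have cW : #W ≤ 2 ^ 4 := by
    have := card_sup_dvd (norms_of_comm hM.1 (U_M (y := l * x * l⁻¹)) (U_M (y := x)))
    rw [← eW, ← U_cj, card_cj, h4] at this
    exact Nat.le_of_dvd (by norm_num) this
  have j1 : x ∈ T M W := U_le.1 (eW ▸ le_sup_left)
  have j2 : l * x * l⁻¹ ∈ T M W := U_le.1 (eW ▸ le_sup_right)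
  obtain ⟨A, eA⟩ : ∃ A, A = ⨆ y : ↥(L ⊓ T M W), U M y := ⟨_, rfl⟩
  have AW : A ≤ W := eA ▸ iSup_le fun y => U_le.2 y.2.2
  have lA : ∀ y ∈ L ⊓ T M W, U M y ≤ A := fun y hy =>
    (le_iSup (fun y : ↥(L ⊓ T M W) => U M y) ⟨y, hy⟩).trans eA.ge
  have nA : ∀ g, (∀ y ∈ L ⊓ T M W, cj g (U M y) ≤ A) → g ∈ N(A) := fun g h =>
    mem_norm_of_cj_le (cj_le_iff.2 (eA.le.trans (iSup_le fun y => cj_le_iff.1 (h y y.2))))
  have xA : x ∈ N(A) := nA x fun y hy => U_cj.le.trans (lA _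
    ⟨conj_mem_of_norm nL hy.1, (T M W).mul_mem ((T M W).mul_mem j1 hy.2) (inv_mem j1)⟩)
  refine fin hM h2 h1 (AW.trans WM) (fun b hb => nA b fun y hy => ?_) ((card_le AW).trans cW) b2 ?_
  · rw [cj_of_mem_norm (h5 y hy.1 ((card_le (U_le.2 hy.2)).trans cW) hb)]
    exact lA y hy
  have y0 : x⁻¹ * (l * x * l⁻¹) ∈ L ⊓ T M W := ⟨by
    simpa [mul_assoc] using mul_mem (conj_mem_of_norm' nL hl) (inv_mem hl), (T M W).mul_mem (inv_mem j1) j2⟩
  have xV : x ∈ N(U M x) := T_norm U_M self_T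
  obtain ⟨k, hk, e⟩ := (Nat.dvd_prime_pow Nat.prime_two).1
    (show #(A ⊓ U M x) ∣ 2 ^ 2 from (card_dvd inf_le_right).trans h4.dvd)
  have cD : k ≤ 1 → A ⊓ U M x = ⊥ := fun h => by
    obtain ⟨n, h6, h7⟩ := idx (d := 1) hM (inf_le_right.trans U_M)
      (norms_inf (zpowers_le.2 xA) (zpowers_le.2 xV)) (e ▸ Nat.pow_le_pow_right two_pos h)
    have : gl n = 1 := g1 n h6
    refine H19.eq_bot_mono (le_inf inf_le_right (cents_symm (relIndex_eq_one.1 (Nat.dvd_one.1 (this ▸ h7)))))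
      (ab_commg_inf_cent hM.1 (zpowers_le.2 (nM x)) ((abelem_pg Nat.prime_two hM).coprime (hX.sing_ne (by norm_num))))
  by_cases k1 : k ≤ 1
  swap
  · obtain rfl : k = 2 := by omega
    exact inf_eq_right.1 (eq_of_le_of_card_eq inf_le_right (e.trans h4.symm))
  exfalso
  have xC : x ∈ C(A) := mem_cent.2 fun a ha => by
    have : a⁻¹ * (x * a * x⁻¹) ∈ A ⊓ U M x :=
      ⟨A.mul_mem (inv_mem ha) (conj_mem_of_norm xA ha), self_T a (WM (AW ha))⟩
    rw [cD k1, mem_bot, inv_mul_eq_one, eq_mul_inv_iff_mul_eq] at this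
    exact this
  have yA := T_norm (AW.trans WM) (U_le.1 (lA _ y0))
  have c := pow_cent xC yA (orderOf (l * x * l⁻¹))
  rw [mul_inv_cancel_left, pow_orderOf_eq_one, one_mul, inv_mem_iff] at c
  have cop' : (orderOf (l * x * l⁻¹)).Coprime (orderOf (x⁻¹ * (l * x * l⁻¹))) :=
    (hx.e_conj l).coprime ((pL.elt y0.1).sing_ne p3)
  have yC := zpowers_le.2 c (mem_zpowers_pow_iff.2 cop')
  have := cop hM ((pL.elt y0.1).sing_ne h2) (cent_mono (lA _ y0) yC)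
  exact nl (mem_norm_iff_cj.2 (by rw [U_cj, ← U_mul (y := x) this, mul_inv_cancel_left]))

theorem main [Group.IsSolvable G] (hM : Abelem 2 M) {p : ℕ} (h2 : p ≠ 2) (hE : El p 3 E ⊤) (hx : PiE {3} x)
    (h4 : #(U M x) = 4) : Cn (U M x) := by
  have st : Sol (⊤ : Subgroup G) := inferInstance
  have hp := hE.prime
  have hX := piG_zpowers.2 hx
  by_cases h3 : 2 < prk 3 (⊤ : Subgroup G)
  · obtain ⟨P, hP, xP⟩ := hX.exists_syl le_top
    obtain ⟨B, h1, h5⟩ := small (d := 2) hM (by norm_num) g43 hP.pi (hP.prk_syl ▸ h3)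
    exact fin (d := 2) hM (by norm_num) h1 U_M (h5 x (xP (mem_zpowers x)) h4.le) h4.le g23 le_rfl
  have p3 : p ≠ 3 := fun e => h3 (e ▸ hE.le_prk)
  obtain ⟨H, hH, xH⟩ := (hX.sing (π := {3, p}) (by simp)).exists_hall st le_top
  have ho : Odd #H := Nat.not_even_iff_odd.1 fun e => by
    have := hH.pi 2 Nat.prime_two e.two_dvd
    simp [h2.symm] at this
  have hL := H4.rank2_min_p_complement (p := 3) (sol_mono st le_top) ho
    ((prk_mono 3 le_top).trans (not_lt.1 h3)) fun q hq e => by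
      have := hq.two_le
      have : q ≠ 2 := fun f => Nat.not_even_iff_odd.2 ho (even_iff_two_dvd.2 (f ▸ e))
      omega
  have nL := (zpowers_le.1 xH |> (Oc_norm {3}ᶜ H))
  generalize Oc {3}ᶜ H = L at hL nL
  have pL : PG p L := fun q hq e => by
    have := hH.pi q hq (e.trans (card_dvd hL.le))
    have := hL.pi q hq e
    simp_all
  refine pcase hM h2 p3 hx h4 pL nL ?_
  rw [hL.prk_eq (by simpa using p3), hH.prk_eq (by simp)]
  exact hE.le_prk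

end H15.Sm
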